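import Cfsg.Agent.Lib.TwoChar.Torus
import Cfsg.Agent.Lib.FPF.Frobenius
import Cfsg.Agent.Lib.Char.Artin

/-!
# Cuspidal virtual characters of `SL(2, q)`, `q` odd
-/

set_option autoImplicit false

open scoped MatrixGroups ComplexConjugate

namespace Cfsg.Agent.Lib.TwoChar

open Cfsg Cfsg.Agent.Lib.Char Matrix

universe u

variable {F : Type u} [Field F] [Fintype F] [Fintype SL(2, F)]

local notation "d" => slDat F

/-- The virtual character attached to a character of a non-split torus. -/
noncomputable def cuspFun (C : Subgroup SL(2, F)) (θ : C →* ℂˣ) (l : (slDat F).T →* ℂˣ) : SL(2, F) → ℂ :=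
  (d).I 1 * (d).I l - ((d).I l + (d).I l + indFun C fun c => (θ c : ℂ))

theorem isGeneralized_cuspFun (C : Subgroup SL(2, F)) (θ : C →* ℂˣ) (l : (slDat F).T →* ℂˣ) :
    IsGeneralizedCharacter SL(2, F) (cuspFun C θ l) :=
  ⟨_, _, isCharacter_mul ((d).isCharacter_I 1) ((d).isCharacter_I l),
    isCharacter_add (isCharacter_add ((d).isCharacter_I l) ((d).isCharacter_I l))
      (isCharacter_indFun C (isCharacter_of_isIrr (isIrrCharacter_linear θ))), rfl⟩

variable (hodd : Odd (Fintype.card F)) (C : Subgroup SL(2, F)) [IsCyclic C]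
  (hcard : Nat.card C = Fintype.card F + 1)

include hodd hcard in
theorem exists_noncentral : ∃ c : C, (c : SL(2, F)) ∉ Subgroup.center SL(2, F) ∧ ∀ x : C, x ∈ Subgroup.zpowers c := by
  obtain ⟨c, hc⟩ := IsCyclic.exists_generator (α := C)
  refine ⟨c, fun h => ?_, hc⟩
  obtain ⟨e, he, hce⟩ := (Two.mem_center_iff_sign _).1 h
  have h2 : c ^ 2 = 1 := Subtype.ext (Subtype.ext (by
    rw [sq]
    change ((c : SL(2, F)) : Matrix (Fin 2) (Fin 2) F) * ((c : SL(2, F)) : Matrix (Fin 2) (Fin 2) F) = 1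
    rw [hce, smul_mul_assoc, Matrix.one_mul, smul_smul, he, one_smul]))
  have := orderOf_dvd_of_pow_eq_one h2
  rw [orderOf_eq_card_of_forall_mem_zpowers hc, hcard] at this
  obtain ⟨r, hr⟩ := hodd
  have := Nat.le_of_dvd (by norm_num) this
  have := Fintype.one_lt_card (α := F)
  omega

include hodd hcard in
theorem center_le : Subgroup.center SL(2, F) ≤ C := by
  obtain ⟨c, hc, -⟩ := exists_noncentral hodd C hcard
  rw [← centralizer_eq_of_mem hodd C hcard c.2 hc]
  exact Subgroup.center_le_centralizer _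

include hodd hcard in
theorem negOne_mem : negOne F ∈ C := center_le hodd C hcard (negOne_mem_center F)

omit [Fintype F] [Fintype SL(2, F)] in
theorem mem_center_cases {z : SL(2, F)} (hz : z ∈ Subgroup.center SL(2, F)) : z = 1 ∨ z = negOne F := by
  obtain ⟨e, he, hz'⟩ := (Two.mem_center_iff_sign z).1 hz
  rcases mul_self_eq_one_iff.1 he with rfl | rfl
  · exact Or.inl (Subtype.ext (by rw [hz', one_smul, Matrix.SpecialLinearGroup.coe_one]))
  · refine Or.inr (Subtype.ext ?_)
    rw [hz', coe_negOne]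
    ext i j; fin_cases i <;> fin_cases j <;> simp

omit [IsCyclic C] in
theorem indFun_central {θ : C →* ℂˣ} {z : SL(2, F)} (hz : z ∈ Subgroup.center SL(2, F)) (hzC : z ∈ C) :
    indFun C (fun c => (θ c : ℂ)) z = (Nat.card C : ℂ)⁻¹ * (Nat.card SL(2, F) : ℂ) * (θ ⟨z, hzC⟩ : ℂ) := by
  rw [indFun, mul_assoc]
  congr 1
  rw [Finset.sum_congr rfl fun x _ => by
    rw [show x⁻¹ * z * x = z by rw [mul_assoc, ← Subgroup.mem_center_iff.1 hz x, inv_mul_cancel_left],
      extendByZero_mem _ _ hzC], Finset.sum_const, nsmul_eq_mul, Finset.card_univ, ← Nat.card_eq_fintype_card]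

include hodd hcard in
theorem indFun_no_root {θ : C →* ℂˣ} {g : SL(2, F)}
    (hr : ∃ a : F, a * a - (g : Matrix (Fin 2) (Fin 2) F).trace * a + 1 = 0)
    (hz : g ∉ Subgroup.center SL(2, F)) : indFun C (fun c => (θ c : ℂ)) g = 0 := by
  rw [indFun, Finset.sum_eq_zero fun x _ => extendByZero_not_mem _ _ fun hx => ?_, mul_zero]
  have hx' : x⁻¹ * g * x ∉ Subgroup.center SL(2, F) := fun hc => hz (by
    have : x * (x⁻¹ * g * x) * x⁻¹ = g := by group
    rw [← this, Subgroup.mem_center_iff.1 hc x, mul_inv_cancel_right]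
    exact hc)
  apply noRoot_of_mem hodd C hcard hx hx'
  rwa [trace_of_conj]

include hodd hcard in
theorem indFun_elliptic {θ : C →* ℂˣ} (c : C) (hc : (c : SL(2, F)) ∉ Subgroup.center SL(2, F)) :
    indFun C (fun c => (θ c : ℂ)) (c : SL(2, F)) = (θ c : ℂ) + (θ c⁻¹ : ℂ) := by
  classical
  have hnr := noRoot_of_mem hodd C hcard c.2 hc
  have hcen := centralizer_eq_of_mem hodd C hcard c.2 hc
  have h2 := Two.two_ne_zero_of_odd hodd
  have hne : (c : SL(2, F))⁻¹ ≠ (c : SL(2, F)) := fun e => by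
    apply hnr.trace_sq hodd
    have hsq : (c : SL(2, F)) * (c : SL(2, F)) = 1 := by nth_rewrite 1 [← e]; exact inv_mul_cancel _
    have e' := congrArg (fun z : SL(2, F) => (z : Matrix (Fin 2) (Fin 2) F).trace) hsq
    simp only [Matrix.SpecialLinearGroup.coe_mul, Matrix.SpecialLinearGroup.coe_one, Two.sl_two_sq, trace_sub,
      trace_smul, trace_one, Fintype.card_fin, smul_eq_mul] at e'
    push_cast at e'
    linear_combination e'
  have hterm : ∀ x : SL(2, F), extendByZero C (fun c => (θ c : ℂ)) (x⁻¹ * c * x) =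
      (if x⁻¹ * c * x = c then (θ c : ℂ) else 0) + (if x⁻¹ * c * x = (c : SL(2, F))⁻¹ then (θ c⁻¹ : ℂ) else 0) := by
    intro x
    by_cases e1 : x⁻¹ * c * x = c
    · have e2 : ¬ x⁻¹ * c * x = (c : SL(2, F))⁻¹ := fun e => hne (e.symm.trans e1)
      rw [if_pos e1, if_neg e2, add_zero, e1]
      exact extendByZero_mem _ _ c.2
    · rw [if_neg e1, zero_add]
      by_cases e2 : x⁻¹ * c * x = (c : SL(2, F))⁻¹
      · rw [if_pos e2, e2]
        exact extendByZero_mem _ _ (inv_mem c.2)
      · rw [if_neg e2]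
        refine extendByZero_not_mem _ _ fun hm => ?_
        rcases eq_or_inv_of_trace h2 hnr (hcen.symm ▸ hm) (trace_of_conj x c) with e | e
        · exact e1 e
        · exact e2 e
  have hcount : ∀ y : SL(2, F), IsConj (c : SL(2, F)) y →
      (Finset.univ.filter fun x : SL(2, F) => x⁻¹ * c * x = y).card = Fintype.card F + 1 := by
    intro y hy
    obtain ⟨x₀, hx₀⟩ := isConj_iff.1 hy
    rw [← hnr.card_centralizer hodd, Nat.card_eq_fintype_card, ← Fintype.card_coe]
    refine Fintype.card_congr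
      { toFun := fun x => ⟨x.1 * x₀, Subgroup.mem_centralizer_singleton_iff.mpr ?_⟩
        invFun := fun z => ⟨z.1 * x₀⁻¹, Finset.mem_filter.mpr ⟨Finset.mem_univ _, ?_⟩⟩
        left_inv := fun x => Subtype.ext (mul_inv_cancel_right _ _)
        right_inv := fun z => Subtype.ext (inv_mul_cancel_right _ _) }
    · have hx := ((Finset.mem_filter.mp x.2).2).trans hx₀.symm
      rw [mul_assoc x.1⁻¹, inv_mul_eq_iff_eq_mul] at hx
      calc x.1 * x₀ * (c : SL(2, F)) = x.1 * (x₀ * c * x₀⁻¹) * x₀ := by group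
        _ = (c : SL(2, F)) * x.1 * x₀ := by rw [← hx]
        _ = (c : SL(2, F)) * (x.1 * x₀) := mul_assoc _ _ _
    · have hz := Subgroup.mem_centralizer_singleton_iff.mp z.2
      rw [← hx₀, _root_.mul_inv_rev, inv_inv]
      calc x₀ * z.1⁻¹ * (c : SL(2, F)) * (z.1 * x₀⁻¹) = x₀ * z.1⁻¹ * ((c : SL(2, F)) * z.1) * x₀⁻¹ := by group
        _ = x₀ * z.1⁻¹ * (z.1 * c) * x₀⁻¹ := by rw [hz]
        _ = x₀ * c * x₀⁻¹ := by group
  rw [indFun, Finset.sum_congr rfl fun x _ => hterm x, Finset.sum_add_distrib, ← Finset.sum_filter, ← Finset.sum_filter,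
    Finset.sum_const, Finset.sum_const, nsmul_eq_mul, nsmul_eq_mul, hcount _ (IsConj.refl _),
    hcount _ (isConj_of_trace hodd hnr (trace_inv _)), hcard, ← mul_add, ← mul_assoc,
    inv_mul_cancel₀ (Nat.cast_ne_zero.mpr (Nat.succ_ne_zero _)), one_mul]

theorem I_apply_one (l : (slDat F).T →* ℂˣ) : (d).I l 1 = (Fintype.card F : ℂ) + 1 := by
  classical
  rw [← (d).uu_zero, (d).I_uu, if_pos rfl]

include hodd in
omit [Fintype SL(2, F)] in
theorem index_torus (hcard : Nat.card C = Fintype.card F + 1) :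
    (Nat.card C : ℂ)⁻¹ * (Nat.card SL(2, F) : ℂ) = (Fintype.card F : ℂ) * ((Fintype.card F : ℂ) - 1) := by
  classical
  rw [hcard, Cfsg.Agent.Lib.Classical.card_SL_two, Nat.cast_mul,
    Nat.cast_sub (Nat.one_le_pow _ _ Fintype.card_pos), Nat.cast_pow, inv_mul_eq_iff_eq_mul₀
    (Nat.cast_ne_zero.mpr (Nat.succ_ne_zero _))]
  push_cast
  ring

include hodd hcard in
theorem cuspFun_one (θ : C →* ℂˣ) (l : (slDat F).T →* ℂˣ) :
    cuspFun C θ l 1 = (Fintype.card F : ℂ) - 1 := by
  simp only [cuspFun, Pi.sub_apply, Pi.mul_apply, Pi.add_apply, I_apply_one]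
  rw [indFun_central C (Subgroup.one_mem _) (Subgroup.one_mem _), index_torus hodd C hcard,
    show (θ ⟨1, C.one_mem⟩ : ℂ) = 1 by rw [show (⟨1, C.one_mem⟩ : C) = 1 from rfl, map_one, Units.val_one]]
  ring

include hcard hodd in
theorem cuspFun_negOne (θ : C →* ℂˣ) (l : (slDat F).T →* ℂˣ)
    (hl : (l ((slT F).symm (-1)) : ℂ) = (θ ⟨negOne F, negOne_mem hodd C hcard⟩ : ℂ)) :
    cuspFun C θ l (negOne F) = ((Fintype.card F : ℂ) - 1) * (θ ⟨negOne F, negOne_mem hodd C hcard⟩ : ℂ) := by
  simp only [cuspFun, Pi.sub_apply, Pi.mul_apply, Pi.add_apply, I_negOne, hl]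
  rw [indFun_central C (negOne_mem_center F) (negOne_mem hodd C hcard), index_torus hodd C hcard]
  simp only [MonoidHom.one_apply, Units.val_one]
  ring

include hodd hcard in
theorem cuspFun_elliptic (θ : C →* ℂˣ) (l : (slDat F).T →* ℂˣ) (c : C)
    (hc : (c : SL(2, F)) ∉ Subgroup.center SL(2, F)) :
    cuspFun C θ l c = -((θ c : ℂ) + (θ c⁻¹ : ℂ)) := by
  have hv := (noRoot_iff_no_eigen _).1 (noRoot_of_mem hodd C hcard c.2 hc)
  simp only [cuspFun, Pi.sub_apply, Pi.mul_apply, Pi.add_apply, (d).I_eq_zero_of_no_eigen _ _ hv,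
    indFun_elliptic hodd C hcard c hc]
  ring

include hodd hcard in
theorem cuspFun_tt (θ : C →* ℂˣ) (l : (slDat F).T →* ℂˣ) {t : (slDat F).T} (ht : t.1.1 ≠ t.1.2) :
    cuspFun C θ l ((d).tt t) = 0 := by
  have hm : ((d).tt t : Matrix (Fin 2) (Fin 2) F) = !![(t.1.1 : F), 0; 0, (t.1.2 : F)] := (d).mat_tt t
  have h12 : (t.1.1 : F) * (t.1.2 : F) = 1 := by
    have h := ((d).tt t).2
    rw [hm, det_fin_two] at h
    simpa using h
  simp only [cuspFun, Pi.sub_apply, Pi.mul_apply, Pi.add_apply, (d).I_tt _ t ht]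
  rw [indFun_no_root hodd C hcard ⟨(t.1.1 : F), by rw [hm, trace_fin_two]; simp; linear_combination -h12⟩ fun hc => ?_]
  · simp only [MonoidHom.one_apply, Units.val_one]
    ring
  · obtain ⟨e, -, he⟩ := (Two.mem_center_iff_sign _).1 hc
    rw [hm] at he
    have e0 := congrFun (congrFun he 0) 0
    have e1 := congrFun (congrFun he 1) 1
    simp at e0 e1
    exact ht (Units.ext (e0.trans e1.symm))

include hodd hcard in
theorem cuspFun_uu (θ : C →* ℂˣ) (l : (slDat F).T →* ℂˣ) {x : F} (hx : x ≠ 0) :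
    cuspFun C θ l ((d).uu x) = -1 := by
  classical
  have hm : ((d).uu x : Matrix (Fin 2) (Fin 2) F) = !![1, x; 0, 1] := (d).mat_uu x
  simp only [cuspFun, Pi.sub_apply, Pi.mul_apply, Pi.add_apply, (d).I_uu, if_neg hx]
  rw [indFun_no_root hodd C hcard ⟨1, by rw [hm, trace_fin_two]; simp⟩ fun hc => ?_]
  · ring
  · obtain ⟨e, -, he⟩ := (Two.mem_center_iff_sign _).1 hc
    rw [hm] at he
    have e0 := congrFun (congrFun he 0) 1
    simp at e0
    exact hx e0

include hodd hcard in
/-- Sums over the torus with corrections at the centre. -/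
theorem sum_torus [Fintype C] (f g : C → ℂ) (h : ∀ c : C, (c : SL(2, F)) ∉ Subgroup.center SL(2, F) → f c = g c) :
    ∑ c, f c = ∑ c, g c + (f 1 - g 1) + (f ⟨negOne F, negOne_mem hodd C hcard⟩ - g ⟨negOne F, negOne_mem hodd C hcard⟩) := by
  classical
  set z : C := ⟨negOne F, negOne_mem hodd C hcard⟩
  have hne : z ≠ 1 := fun e => Two.two_ne_zero_of_odd hodd (by
    have e' := congrArg (fun w : C => ((w : SL(2, F)) : Matrix (Fin 2) (Fin 2) F) 0 0) e
    simp [z, coe_negOne] at e'
    linear_combination -e')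
  have : ∀ c : C, f c = g c + (if c = 1 then f 1 - g 1 else 0) + (if c = z then f z - g z else 0) := fun c => by
    by_cases e1 : c = 1
    · rw [e1, if_pos rfl, if_neg (Ne.symm hne)]; ring
    · by_cases e2 : c = z
      · rw [e2, if_pos rfl, if_neg hne]; ring
      · rw [if_neg e1, if_neg e2, h c fun hc => ?_]
        · ring
        · rcases mem_center_cases hc with e | e
          · exact e1 (Subtype.ext e)
          · exact e2 (Subtype.ext e)
  rw [Finset.sum_congr rfl fun c _ => this c, Finset.sum_add_distrib, Finset.sum_add_distrib, Finset.sum_ite_eq',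
    Finset.sum_ite_eq', if_pos (Finset.mem_univ _), if_pos (Finset.mem_univ _)]

include hodd in
omit [IsCyclic C] in
/-- The norm of the product part. -/
theorem norm_split (l : (slDat F).T →* ℂˣ) :
    classInner ((d).I 1 * (d).I l - ((d).I l + (d).I l)) ((d).I 1 * (d).I l - ((d).I l + (d).I l)) =
      2 * (Fintype.card F : ℂ) := by
  classical
  set X := (d).I 1 * (d).I l - ((d).I l + (d).I l) with hXdef
  have hX : IsClassFunction SL(2, F) X := fun g h => by
    simp only [hXdef, Pi.sub_apply, Pi.mul_apply, Pi.add_apply,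
      isClassFunction_of_isCharacter ((d).isCharacter_I 1) g h, isClassFunction_of_isCharacter ((d).isCharacter_I l) g h]
  have hXeq : X = indFun (d).B (fun b => (d).pch l b * ((d).I 1 b.1 - 2)) := by
    rw [indFun_mul_restrict (d).B ((d).pch l) (χ := fun g => (d).I 1 g - 2)
      (fun g h => by simp only [isClassFunction_of_isCharacter ((d).isCharacter_I 1) g h])]
    funext g
    simp only [hXdef, Pi.sub_apply, Pi.mul_apply, Pi.add_apply, Dat.I]
    ring
  nth_rewrite 1 [hXeq]
  rw [classInner_indFun _ _ hX, classInner, ← (d).borelEquiv.sum_comp,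
    show (Nat.card (d).B : ℂ) = (Nat.card (d).T : ℂ) * (Fintype.card F : ℂ) by
      rw [← Nat.card_congr (d).borelEquiv, Nat.card_prod, Nat.card_eq_fintype_card (α := F), Nat.cast_mul],
    Fintype.sum_prod_type]
  have key : ∀ t : (d).T, ∑ x : F, (d).pch l ((d).borelEquiv (t, x)) * ((d).I 1 ((d).borelEquiv (t, x)).1 - 2) *
      conj (X ((d).borelEquiv (t, x)).1) =
      if t.1.1 = t.1.2 then ((Fintype.card F : ℂ) - 1) * (Fintype.card F : ℂ) ^ 2 else 0 := by
    intro t
    by_cases ht : t.1.1 = t.1.2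
    · have hsw : (d).swap t = t := Subtype.ext (Prod.ext ht.symm ht)
      have hv : ∀ x : F, (d).pch l ((d).borelEquiv (t, x)) * ((d).I 1 ((d).borelEquiv (t, x)).1 - 2) *
          conj (X ((d).borelEquiv (t, x)).1) =
          1 + if x = 0 then ((Fintype.card F : ℂ) - 1) ^ 2 * ((Fintype.card F : ℂ) + 1) - 1 else 0 := by
        intro x
        have hcd : Nat.card {y : F // ((t.1.2 : F) - (t.1.1 : F)) * y = x} =
            if x = 0 then Fintype.card F else 0 := by
          split_ifs with hx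
          · rw [Nat.card_congr (Equiv.subtypeUnivEquiv fun y => by rw [ht, sub_self, zero_mul, hx]),
              Nat.card_eq_fintype_card]
          · have : IsEmpty {y : F // ((t.1.2 : F) - (t.1.1 : F)) * y = x} :=
              ⟨fun y => hx (y.2.symm.trans (mul_eq_zero_of_left (by rw [ht, sub_self]) _))⟩
            exact Nat.card_of_isEmpty
        have hl := linear_conj_mul l t
        simp only [hXdef, Pi.sub_apply, Pi.mul_apply, Pi.add_apply, (d).I_borel, Dat.pch, ← (d).proj_fst, ← (d).proj_snd,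
          (d).mat_borelEquiv, (d).proj_borelEquiv, hsw, hcd, MonoidHom.one_apply, Units.val_one]
        split_ifs <;> simp only [map_sub, map_add, map_mul, Nat.cast_zero, Complex.conj_natCast, map_zero, map_one]
        · linear_combination ((Fintype.card F : ℂ) - 1) ^ 2 * ((Fintype.card F : ℂ) + 1) * hl
        · linear_combination hl
      rw [if_pos ht, Finset.sum_congr rfl fun x _ => hv x, Finset.sum_add_distrib, Finset.sum_const, Finset.card_univ,
        Finset.sum_ite_eq', if_pos (Finset.mem_univ _), nsmul_eq_mul]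
      ring
    · rw [if_neg ht]
      refine Finset.sum_eq_zero fun x _ => ?_
      have hne : (t.1.2 : F) - (t.1.1 : F) ≠ 0 := sub_ne_zero.mpr fun e => ht (Units.ext e.symm)
      have hcd : Nat.card {y : F // ((t.1.2 : F) - (t.1.1 : F)) * y = x} = 1 :=
        Nat.card_eq_one_iff_exists.mpr ⟨⟨x / ((t.1.2 : F) - (t.1.1 : F)), mul_div_cancel₀ _ hne⟩,
          fun y => Subtype.ext (by rw [eq_div_iff hne, mul_comm]; exact y.2)⟩
      simp only [(d).I_borel, ← (d).proj_fst, ← (d).proj_snd, (d).mat_borelEquiv, (d).proj_borelEquiv, hcd,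
        MonoidHom.one_apply, Units.val_one]
      norm_num
  have hT2 : (Finset.univ.filter fun t : (d).T => t.1.1 = t.1.2).card = 2 := by
    refine Eq.trans ?_ (Two.card_sign (F := F) hodd)
    rw [Nat.card_eq_fintype_card, ← Fintype.card_subtype]
    refine Fintype.card_congr
      { toFun := fun t => ⟨(t.1.1.1 : F), ?_⟩
        invFun := fun e => ⟨(slT F).symm (Units.mk0 e.1 (fun h => by simpa [h] using e.2)), ?_⟩
        left_inv := fun t => Subtype.ext ((slT F).injective (Units.ext rfl))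
        right_inv := fun e => Subtype.ext rfl }
    · have h := (slDat_mem_T F).1 t.1.2
      rw [← t.2] at h
      have := congrArg Units.val (eq_inv_iff_mul_eq_one.mp h)
      simpa using this
    · refine Units.ext ?_
      change e.1 = (e.1)⁻¹
      exact eq_inv_of_mul_eq_one_left e.2
  rw [Finset.sum_congr rfl fun t _ => key t, ← Finset.sum_filter, Finset.sum_const, hT2, card_slT, nsmul_eq_mul,
    Nat.cast_sub (Fintype.card_pos : 0 < Fintype.card F)]
  have h1 : (Fintype.card F : ℂ) - 1 ≠ 0 := by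
    rw [sub_ne_zero, Ne, Nat.cast_eq_one]; have := Fintype.one_lt_card (α := F); omega
  have h2 : (Fintype.card F : ℂ) ≠ 0 := Nat.cast_ne_zero.mpr Fintype.card_ne_zero
  push_cast
  field_simp

include hodd hcard in
/-- The norm. -/
theorem classInner_cuspFun (θ : C →* ℂˣ) (l : (slDat F).T →* ℂˣ)
    (hl : (l ((slT F).symm (-1)) : ℂ) = (θ ⟨negOne F, negOne_mem hodd C hcard⟩ : ℂ)) [Decidable (θ ^ 2 = 1)] :
    classInner (cuspFun C θ l) (cuspFun C θ l) = if θ ^ 2 = 1 then 2 else 1 := by
  classical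
  set z : C := ⟨negOne F, negOne_mem hodd C hcard⟩ with hzd
  set X := (d).I 1 * (d).I l - ((d).I l + (d).I l) with hXdef
  set Y := indFun C (fun c => (θ c : ℂ)) with hYdef
  have hX : IsClassFunction SL(2, F) X := fun g h => by
    simp only [hXdef, Pi.sub_apply, Pi.mul_apply, Pi.add_apply,
      isClassFunction_of_isCharacter ((d).isCharacter_I 1) g h, isClassFunction_of_isCharacter ((d).isCharacter_I l) g h]
  have hY : IsClassFunction SL(2, F) Y := isClassFunction_indFun _ _
  have hz2 : (θ z : ℂ) * conj (θ z : ℂ) = 1 := linear_conj_mul θ z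
  have hq : ((Fintype.card F : ℂ) + 1) ≠ 0 := by exact_mod_cast Nat.succ_ne_zero (Fintype.card F)
  have hsq : (θ z : ℂ) * (θ z : ℂ) = 1 := by
    have e : z * z = 1 := Subtype.ext (negOne_mul_self F)
    rw [← Units.val_mul, ← map_mul, e, map_one, Units.val_one]
  have hcj : conj (θ z : ℂ) = (θ z : ℂ) := by linear_combination (θ z : ℂ) * hz2 - conj (θ z : ℂ) * hsq
  have hi : (θ z⁻¹ : ℂ) = (θ z : ℂ) := by
    rw [show z⁻¹ = z from inv_eq_of_mul_eq_one_right (Subtype.ext (negOne_mul_self F))]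
  have hXY : classInner X Y = 2 * ((Fintype.card F : ℂ) - 1) := by
    rw [hYdef, classInner_indFun_right _ _ hX, classInner,
      sum_torus hodd C hcard (fun c => X c * conj (θ c : ℂ)) (fun _ => 0) fun c hc => by
        have hv := (noRoot_iff_no_eigen _).1 (noRoot_of_mem hodd C hcard c.2 hc)
        simp only [hXdef, Pi.sub_apply, Pi.mul_apply, Pi.add_apply, (d).I_eq_zero_of_no_eigen _ _ hv]
        ring,
      Finset.sum_const_zero]
    simp only [hXdef, Pi.sub_apply, Pi.mul_apply, Pi.add_apply, OneMemClass.coe_one, I_apply_one, I_negOne, hl,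
      MonoidHom.one_apply, Units.val_one, map_one, sub_zero, ← hzd, hcj]
    rw [hcard, inv_mul_eq_iff_eq_mul₀ (Nat.cast_ne_zero.mpr (Nat.succ_ne_zero _))]
    push_cast
    linear_combination ((Fintype.card F : ℂ) + 1) * ((Fintype.card F : ℂ) - 1) * hsq
  have hYX : classInner Y X = 2 * ((Fintype.card F : ℂ) - 1) := by
    rw [classInner_conj_symm, hXY, map_mul, map_sub, Complex.conj_natCast, map_one, map_ofNat]
  have hYY : classInner Y Y = 2 * (Fintype.card F : ℂ) - 3 + if θ ^ 2 = 1 then 1 else 0 := by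
    nth_rewrite 1 [hYdef]
    rw [classInner_indFun _ _ hY, classInner,
      sum_torus hodd C hcard (fun c => (θ c : ℂ) * conj (Y c))
        (fun c => 1 + ((θ ^ 2) c : ℂ) * conj ((1 : C →* ℂˣ) c : ℂ)) fun c hc => by
          rw [hYdef, indFun_elliptic hodd C hcard c hc, map_add, conj_hom θ c⁻¹, inv_inv, mul_add,
            linear_conj_mul θ c]
          simp [sq],
      Finset.sum_add_distrib, sum_hom_mul_conj, Finset.sum_const, Finset.card_univ, nsmul_eq_mul, mul_one]
    simp only [hYdef, OneMemClass.coe_one, indFun_central C (Subgroup.one_mem _) C.one_mem,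
      indFun_central C (negOne_mem_center F) (negOne_mem hodd C hcard), index_torus hodd C hcard, ← hzd,
      show (⟨1, C.one_mem⟩ : C) = 1 from rfl, map_one, Units.val_one, mul_one, map_mul, map_sub, Complex.conj_natCast,
      MonoidHom.pow_apply, Units.val_pow_eq_pow_val, MonoidHom.one_apply, hcj, one_pow, one_mul]
    rw [← Nat.card_eq_fintype_card, hcard, inv_mul_eq_iff_eq_mul₀ (Nat.cast_ne_zero.mpr (Nat.succ_ne_zero _)), sq (θ z : ℂ)]
    push_cast
    split_ifs <;> linear_combination ((Fintype.card F : ℂ) * ((Fintype.card F : ℂ) - 1) - 1) * hsq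
  have hXX := norm_split hodd l
  rw [← hXdef] at hXX
  have hexp : classInner (cuspFun C θ l) (cuspFun C θ l) =
      classInner X X - classInner X Y - classInner Y X + classInner Y Y := by
    have : cuspFun C θ l = X - Y := by rw [cuspFun, hXdef, hYdef, ← sub_sub]
    rw [this]
    simp only [classInner, Pi.sub_apply, map_sub, mul_sub, sub_mul, Finset.sum_sub_distrib]
    ring
  rw [hexp, hXX, hXY, hYX, hYY]
  split_ifs <;> ring

include hodd hcard in
theorem isIrr_cuspFun (θ : C →* ℂˣ) (hθ : θ ^ 2 ≠ 1) (l : (slDat F).T →* ℂˣ)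
    (hl : (l ((slT F).symm (-1)) : ℂ) = (θ ⟨negOne F, negOne_mem hodd C hcard⟩ : ℂ)) :
    IsIrrCharacter SL(2, F) (cuspFun C θ l) := by
  classical
  refine FPF.isIrr_of_generalized_norm_one (isGeneralized_cuspFun C θ l) ?_
    (show cuspFun C θ l 1 = ((Fintype.card F - 1 : ℕ) : ℂ) by
      rw [cuspFun_one hodd C hcard, Nat.cast_sub (Fintype.card_pos : 0 < Fintype.card F), Nat.cast_one])
  rw [classInner_cuspFun hodd C hcard θ l hl, if_neg hθ]

include hodd hcard in
theorem exists_matching (θ : C →* ℂˣ) :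
    ∃ l : (slDat F).T →* ℂˣ, (l ((slT F).symm (-1)) : ℂ) = (θ ⟨negOne F, negOne_mem hodd C hcard⟩ : ℂ) := by
  set z : C := ⟨negOne F, negOne_mem hodd C hcard⟩
  have hsq : (θ z : ℂ) * (θ z : ℂ) = 1 := by
    rw [← Units.val_mul, ← map_mul, show z * z = 1 from Subtype.ext (negOne_mul_self F), map_one, Units.val_one]
  rcases mul_self_eq_one_iff.mp hsq with h | h
  · exact ⟨1, by rw [h]; rfl⟩
  · have : NeZero (Monoid.exponent (slDat F).T) := ⟨Monoid.exponent_ne_zero_of_finite⟩
    have : NeZero (Monoid.exponent (slDat F).T : ℂ) := NeZero.charZero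
    have hne : (slT F).symm (-1) ≠ 1 := fun e => Two.two_ne_zero_of_odd hodd (by
      have e' := congrArg (fun t : (slDat F).T => (t.1.1 : F)) e
      simp [slT] at e'
      linear_combination -e')
    obtain ⟨l, hl⟩ := CommGroup.exists_apply_ne_one_of_hasEnoughRootsOfUnity (slDat F).T ℂ hne
    refine ⟨l, ?_⟩
    rw [h]
    have h2 : (l ((slT F).symm (-1)) : ℂ) * (l ((slT F).symm (-1)) : ℂ) = 1 := by
      rw [← Units.val_mul, ← map_mul, ← map_mul, neg_one_mul, neg_neg, map_one, map_one, Units.val_one]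
    rcases mul_self_eq_one_iff.mp h2 with h3 | h3
    · exact absurd (Units.ext h3) hl
    · exact h3

end Cfsg.Agent.Lib.TwoChar
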