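import Cfsg.Agent.Lib.TwoChar.Semisimple
import Cfsg.Agent.Lib.TwoChar.Cusp

/-!
# Sylow normalisers in `SL(2, q)`, `q` odd
-/

set_option autoImplicit false

open scoped MatrixGroups

namespace Cfsg.Agent.Lib.TwoChar

open Cfsg Matrix Polynomial

universe u

variable {F : Type u} [Field F] [Fintype F] (hodd : Odd (Fintype.card F))

include hodd in
theorem Reg.conj {g : SL(2, F)} (hg : Reg g) (y : SL(2, F)) :
    Reg (y * g * y⁻¹) ∧ Nat.card (torusOf (y * g * y⁻¹)) = Nat.card (torusOf g) := by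
  have ht : ((y * g * y⁻¹ : SL(2, F)) : Matrix (Fin 2) (Fin 2) F).trace = (g : Matrix (Fin 2) (Fin 2) F).trace := by
    have := trace_of_conj y⁻¹ g
    rwa [inv_inv] at this
  refine ⟨by unfold Reg; rw [ht]; exact hg, ?_⟩
  rw [centralizer_conj]
  exact (Nat.card_congr ((torusOf g).equivMapOfInjective _ (MulAut.conj y).injective).toEquiv).symm

include hodd in
theorem exists_torus_pred (hq : 5 ≤ Fintype.card F) :
    ∃ g : SL(2, F), Reg g ∧ Nat.card (torusOf g) = Fintype.card F - 1 := by
  classical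
  obtain ⟨a, ha, ha1, ha2⟩ : ∃ a : F, a ≠ 0 ∧ a ≠ 1 ∧ a ≠ -1 := by
    by_contra h
    push Not at h
    have h1 : (Finset.univ : Finset F) ⊆ {0, 1, -1} := fun a _ => by
      simp only [Finset.mem_insert, Finset.mem_singleton]
      by_cases e0 : a = 0
      · exact Or.inl e0
      · by_cases e1 : a = 1
        · exact Or.inr (Or.inl e1)
        · exact Or.inr (Or.inr (h a e0 e1))
    have := (Finset.card_le_card h1).trans Finset.card_le_three
    rw [Finset.card_univ] at this
    omega
  have hm : ((Two.diagSL (Units.mk0 a ha) : SL(2, F)) : Matrix (Fin 2) (Fin 2) F).trace = a + a⁻¹ := by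
    simp [Two.diagSL, trace_fin_two]
  have hg : Reg (Two.diagSL (Units.mk0 a ha)) := fun h => by
    rw [hm] at h
    have h' : (a - 1) * (a + 1) * ((a - 1) * (a + 1)) = 0 := by
      field_simp at h
      linear_combination h
    rcases mul_eq_zero.mp h' with h'' | h'' <;> rcases mul_eq_zero.mp h'' with e | e <;>
      first | exact ha1 (sub_eq_zero.mp e) | exact ha2 (eq_neg_of_add_eq_zero_left e)
  exact ⟨_, hg, (hg.split_torus hodd ⟨a, by rw [hm]; field_simp; ring⟩).1⟩

include hodd in
theorem exists_torus_succ : ∃ g : SL(2, F), NoRoot g ∧ Reg g ∧ Nat.card (torusOf g) = Fintype.card F + 1 := by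
  classical
  haveI := Fintype.ofFinite SL(2, F)
  obtain ⟨p, hp⟩ := CharP.exists F
  obtain ⟨n, hpp, -⟩ := FiniteField.card F p
  haveI : Fact p.Prime := ⟨hpp⟩
  obtain ⟨A, hA⟩ := Two.exists_orderOf_card_succ (F := F) p
  have hnc : A ∉ Subgroup.center SL(2, F) := fun h => by
    obtain ⟨e, he, hA'⟩ := (Two.mem_center_iff_sign A).1 h
    have h1 : A ^ 2 = 1 := Subtype.ext (by
      rw [Matrix.SpecialLinearGroup.coe_pow, hA', _root_.smul_pow, one_pow, sq, he, one_smul]; rfl)
    have := Nat.le_of_dvd two_pos (orderOf_dvd_of_pow_eq_one h1)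
    rw [hA] at this
    have := Fintype.one_lt_card (α := F)
    omega
  have hnr : NoRoot A := noRoot_of_mem hodd (Subgroup.zpowers A) (by rw [Nat.card_zpowers, hA])
    (Subgroup.mem_zpowers A) hnc
  exact ⟨A, hnr, hnr.trace_sq hodd, hnr.card_centralizer hodd⟩

include hodd in
/-- Every elliptic element has a conjugate in a given non-split torus. -/
theorem exists_conj_mem {g A : SL(2, F)} (hg : NoRoot g) (hA : NoRoot A) :
    ∃ h : SL(2, F), h * g * h⁻¹ ∈ torusOf A := by
  classical
  haveI := Fintype.ofFinite SL(2, F)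
  have h2 := Two.two_ne_zero_of_odd hodd
  have hRA : Reg A := hA.trace_sq hodd
  haveI : IsCyclic (torusOf A) := hRA.isCyclic hodd
  have hcard : Nat.card (torusOf A) = Fintype.card F + 1 := hA.card_centralizer hodd
  set W := Finset.univ.filter fun x : SL(2, F) => x ∈ torusOf A ∧ x ∉ Subgroup.center SL(2, F) with hW
  set S := W.image fun x : SL(2, F) => (x : Matrix (Fin 2) (Fin 2) F).trace with hS
  have hWcard : Fintype.card F - 1 ≤ W.card := by
    have h1 : (Finset.univ.filter fun x : SL(2, F) => x ∈ torusOf A).card = Fintype.card F + 1 := by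
      rw [← hcard, Nat.card_eq_fintype_card, Fintype.card_subtype]
    have h3 : (Finset.univ.filter fun x : SL(2, F) => x ∈ torusOf A) ⊆ W ∪ {1, negOne F} := fun x hx => by
      have hx' := (Finset.mem_filter.mp hx).2
      by_cases hz : x ∈ Subgroup.center SL(2, F)
      · rcases mem_center_cases hz with e | e <;> simp [e]
      · exact Finset.mem_union_left _ (Finset.mem_filter.mpr ⟨Finset.mem_univ _, hx', hz⟩)
    have := (Finset.card_le_card h3).trans (Finset.card_union_le _ _)
    have h4 : ({1, negOne F} : Finset SL(2, F)).card ≤ 2 := Finset.card_le_two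
    omega
  have hfib : ∀ t ∈ S, (W.filter fun x : SL(2, F) => (x : Matrix (Fin 2) (Fin 2) F).trace = t).card ≤ 2 := by
    intro t ht
    obtain ⟨x, hx, rfl⟩ := Finset.mem_image.mp ht
    obtain ⟨-, hxm, hxz⟩ := Finset.mem_filter.mp hx
    obtain ⟨hxr, hxT⟩ := hRA.of_mem_centralizer hxm hxz
    refine le_trans (Finset.card_le_card (t := {x, x⁻¹}) fun y hy => ?_) Finset.card_le_two
    obtain ⟨hyW, hyt⟩ := Finset.mem_filter.mp hy
    obtain ⟨-, hym, -⟩ := Finset.mem_filter.mp hyW
    rcases hxr.eq_or_inv h2 (by rw [hxT]; exact hym) hyt with e | e <;> simp [e]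
  have hScard : Fintype.card F - 1 ≤ 2 * S.card := hWcard.trans (Finset.card_le_mul_card_image W 2 hfib)
  have hnr : ∀ t ∈ S, ¬ ∃ a : F, a * a - t * a + 1 = 0 := fun t ht => by
    obtain ⟨x, hx, rfl⟩ := Finset.mem_image.mp ht
    obtain ⟨-, hxm, hxz⟩ := Finset.mem_filter.mp hx
    exact noRoot_of_mem hodd _ hcard hxm hxz
  have hdiv : ∀ x : SL(2, F), NoRoot x → Two.quadPoly (x : Matrix (Fin 2) (Fin 2) F).trace ∣
      X ^ (Fintype.card F + 1) - 1 := fun x hx => by
    have hpow := Two.pow_card_succ_eq_one x hx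
    have hirr := Two.irreducible_quadPoly hx
    have hmon : (Two.quadPoly (x : Matrix (Fin 2) (Fin 2) F).trace).Monic := by
      rw [Two.quadPoly_eq, Monic, leadingCoeff_quadratic one_ne_zero]
    rw [minpoly.eq_of_irreducible_of_monic hirr (Two.aeval_quadPoly x) hmon]
    refine minpoly.dvd F _ ?_
    rw [map_sub, map_pow, aeval_X, map_one, ← Matrix.SpecialLinearGroup.coe_pow, hpow,
      Matrix.SpecialLinearGroup.coe_one, sub_self]
  have hmonic : ∀ t : F, (Two.quadPoly t).Monic := fun t => by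
    rw [Two.quadPoly_eq, Monic, leadingCoeff_quadratic one_ne_zero]
  have hq2 : (X ^ 2 - 1 : F[X]).Monic := monic_X_pow_sub_C 1 two_ne_zero
  have hqn : (X ^ (Fintype.card F + 1) - 1 : F[X]).Monic := monic_X_pow_sub_C 1 (Nat.succ_ne_zero _)
  have hco : ∀ t ∈ S, IsCoprime (X ^ 2 - 1 : F[X]) (Two.quadPoly t) := fun t ht => by
    refine (((Two.irreducible_quadPoly (hnr t ht)).coprime_iff_not_dvd).2 fun h => ?_).symm
    have e := Polynomial.eq_of_monic_of_dvd_of_natDegree_le (hmonic t) hq2 h (by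
      rw [Two.natDegree_quadPoly, ← C_1, natDegree_X_pow_sub_C])
    refine hnr t ht ⟨1, ?_⟩
    have e' := congrArg (Polynomial.eval 1) e
    simp [Two.quadPoly] at e'
    linear_combination -e'
  have hco' : (S : Set F).Pairwise (Function.onFun IsCoprime Two.quadPoly) := fun t ht t' ht' hne => by
    refine ((Two.irreducible_quadPoly (hnr t ht)).coprime_iff_not_dvd).2 fun h => hne ?_
    have e := Polynomial.eq_of_monic_of_dvd_of_natDegree_le (hmonic t) (hmonic t') h (by
      rw [Two.natDegree_quadPoly, Two.natDegree_quadPoly])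
    have e' := congrArg (Polynomial.eval 1) e
    simp [Two.quadPoly] at e'
    linear_combination -e'
  have hdvd : (X ^ 2 - 1) * ∏ t ∈ S, Two.quadPoly t ∣ X ^ (Fintype.card F + 1) - 1 := by
    refine (IsCoprime.prod_right fun t ht => hco t ht).mul_dvd ?_ (Finset.prod_dvd_of_coprime hco' fun t ht => ?_)
    · obtain ⟨r, hr⟩ := hodd
      rw [show Fintype.card F + 1 = 2 * (r + 1) by omega, pow_mul]
      simpa using sub_dvd_pow_sub_pow (X ^ 2 : F[X]) 1 (r + 1)
    · obtain ⟨x, hx, rfl⟩ := Finset.mem_image.mp ht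
      exact hdiv x (hnr _ (Finset.mem_image_of_mem _ hx))
  have hPm : ((X ^ 2 - 1) * ∏ t ∈ S, Two.quadPoly t : F[X]).Monic :=
    hq2.mul (monic_prod_of_monic _ _ fun t _ => hmonic t)
  have heq := Polynomial.eq_of_monic_of_dvd_of_natDegree_le hPm hqn hdvd (by
    rw [hq2.natDegree_mul (monic_prod_of_monic _ _ fun t _ => hmonic t),
      natDegree_prod_of_monic _ _ fun t _ => hmonic t, Finset.sum_congr rfl fun t _ => Two.natDegree_quadPoly t,
      Finset.sum_const, smul_eq_mul, ← C_1, natDegree_X_pow_sub_C, natDegree_X_pow_sub_C]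
    omega)
  have hpr : Prime (Two.quadPoly (g : Matrix (Fin 2) (Fin 2) F).trace) := (Two.irreducible_quadPoly hg).prime
  have hg' := hdiv g hg
  rw [heq] at hg'
  rcases hpr.dvd_mul.1 hg' with h | h
  · exfalso
    have e := Polynomial.eq_of_monic_of_dvd_of_natDegree_le (hmonic _) hq2 h (by
      rw [Two.natDegree_quadPoly, ← C_1, natDegree_X_pow_sub_C])
    refine hg ⟨1, ?_⟩
    have e' := congrArg (Polynomial.eval 1) e
    simp [Two.quadPoly] at e'
    linear_combination -e'
  · obtain ⟨t, ht, htd⟩ := (hpr.dvd_finset_prod_iff _).1 h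
    have e := Polynomial.eq_of_monic_of_dvd_of_natDegree_le (hmonic _) (hmonic t) htd (by
      rw [Two.natDegree_quadPoly, Two.natDegree_quadPoly])
    have e' := congrArg (Polynomial.eval 1) e
    simp [Two.quadPoly] at e'
    obtain ⟨x, hx, hxt⟩ := Finset.mem_image.mp ht
    obtain ⟨y, hy⟩ := isConj_iff.1 (isConj_of_trace hodd hg
      (show (x : Matrix (Fin 2) (Fin 2) F).trace = (g : Matrix (Fin 2) (Fin 2) F).trace by
        rw [hxt]; linear_combination e'))
    exact ⟨y, hy ▸ (Finset.mem_filter.mp hx).2.1⟩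

include hodd in
/-- Subgroups of a torus with a noncentral element. -/
theorem Reg.subgroup_torus {g : SL(2, F)} (hg : Reg g) {R : Subgroup SL(2, F)} (hR : R ≤ torusOf g)
    {x : SL(2, F)} (hx : x ∈ R) (hxz : x ∉ Subgroup.center SL(2, F)) :
    Subgroup.centralizer (R : Set SL(2, F)) = torusOf g ∧
      Subgroup.normalizer (R : Set SL(2, F)) = Subgroup.normalizer ((torusOf g : Subgroup SL(2, F)) : Set SL(2, F)) := by
  obtain ⟨hxr, hxT⟩ := hg.of_mem_centralizer (hR hx) hxz
  refine ⟨le_antisymm (fun y hy => ?_) (fun y hy => ?_), ?_⟩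
  · rw [show torusOf g = torusOf x from hxT.symm]
    exact Subgroup.mem_centralizer_singleton_iff.mpr ((Subgroup.mem_centralizer_iff.mp hy) x hx).symm
  · exact Subgroup.mem_centralizer_iff.mpr fun r hr => hg.centralizer_comm (hR hr) hy
  · ext n
    constructor
    · intro hn
      have h1 : n * x * n⁻¹ ∈ torusOf g := hR ((Subgroup.mem_normalizer_iff.mp hn x).1 hx)
      rw [show torusOf g = torusOf x from hxT.symm] at h1
      have h2 := (hxr.mem_normalizer_iff hodd n).2 (hxr.eq_or_inv (Two.two_ne_zero_of_odd hodd) h1 (by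
        have := trace_of_conj n⁻¹ x
        rwa [inv_inv] at this))
      rwa [show torusOf x = torusOf g from hxT] at h2
    · intro hn
      by_cases hnT : n ∈ torusOf g
      · refine Subgroup.mem_normalizer_iff.mpr fun r => ⟨fun hr => ?_, fun hr => ?_⟩
        · rw [hg.centralizer_comm hnT (hR hr), mul_inv_cancel_right]; exact hr
        · have e : n⁻¹ * (n * r * n⁻¹) * n = r := by group
          rw [← e, mul_assoc, hg.centralizer_comm (hR hr) hnT, inv_mul_cancel_left]
          exact hr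
      · have hinv := (hg.outside hodd hn hnT).1
        refine Subgroup.mem_normalizer_iff.mpr fun r => ⟨fun hr => ?_, fun hr => ?_⟩
        · rw [hinv r (hR hr)]; exact inv_mem hr
        · have hrT : r ∈ torusOf g := (Subgroup.mem_normalizer_iff.mp hn r).2 (hR hr)
          rw [hinv r hrT] at hr
          exact inv_mem_iff.mp hr

include hodd in
/-- A Sylow subgroup for an odd prime dividing the order of a torus lies in a conjugate torus. -/
theorem exists_torus_of_sylow {g : SL(2, F)} (hg : Reg g) (ℓ : ℕ) [Fact ℓ.Prime]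
    (hv : (Nat.card SL(2, F)).factorization ℓ = (Nat.card (torusOf g)).factorization ℓ) (P : Sylow ℓ SL(2, F)) :
    ∃ g' : SL(2, F), Reg g' ∧ Nat.card (torusOf g') = Nat.card (torusOf g) ∧ (P : Subgroup SL(2, F)) ≤ torusOf g' := by
  haveI : Fintype SL(2, F) := Fintype.ofFinite _
  obtain ⟨R₀⟩ : Nonempty (Sylow ℓ (torusOf g)) := inferInstance
  have hcard : Nat.card ((R₀ : Subgroup (torusOf g)).map (torusOf g).subtype) =
      ℓ ^ (Nat.card SL(2, F)).factorization ℓ := by
    rw [hv, Subgroup.card_map_of_injective (torusOf g).subtype_injective, R₀.card_eq_multiplicity]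
  let R : Sylow ℓ SL(2, F) := Sylow.ofCard _ hcard
  obtain ⟨y, hy⟩ := MulAction.exists_smul_eq SL(2, F) R P
  obtain ⟨h1, h2⟩ := hg.conj hodd y
  refine ⟨y * g * y⁻¹, h1, h2, fun z hz => ?_⟩
  rw [← hy, Sylow.coe_subgroup_smul, Subgroup.mem_smul_pointwise_iff_exists] at hz
  obtain ⟨s, hs, rfl⟩ := hz
  rw [centralizer_conj]
  have hs' : s ∈ (R₀ : Subgroup (torusOf g)).map (torusOf g).subtype := hs
  obtain ⟨r, -, rfl⟩ := hs'
  exact ⟨_, r.2, rfl⟩

omit [Fintype F] in
theorem conj_normalizer {g : SL(2, F)} (y n : SL(2, F))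
    (hn : n ∈ Subgroup.normalizer ((torusOf g : Subgroup SL(2, F)) : Set SL(2, F))) :
    y * n * y⁻¹ ∈ Subgroup.normalizer ((torusOf (y * g * y⁻¹) : Subgroup SL(2, F)) : Set SL(2, F)) := by
  refine Subgroup.mem_normalizer_iff.mpr fun z => ?_
  rw [centralizer_conj]
  simp only [Subgroup.mem_map, MulEquiv.coe_toMonoidHom, MulAut.conj_apply]
  constructor
  · rintro ⟨t, ht, rfl⟩
    exact ⟨n * t * n⁻¹, (Subgroup.mem_normalizer_iff.mp hn t).1 ht, by group⟩
  · rintro ⟨t, ht, e⟩
    refine ⟨n⁻¹ * t * n, ?_, ?_⟩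
    · rw [Subgroup.mem_normalizer_iff.mp hn]
      rwa [show n * (n⁻¹ * t * n) * n⁻¹ = t by group]
    · calc y * (n⁻¹ * t * n) * y⁻¹ = (y * n * y⁻¹)⁻¹ * (y * t * y⁻¹) * (y * n * y⁻¹) := by group
        _ = (y * n * y⁻¹)⁻¹ * (y * n * y⁻¹ * z * (y * n * y⁻¹)⁻¹) * (y * n * y⁻¹) := by rw [e]
        _ = z := by group

include hodd in
/-- The structure of a Sylow two-subgroup. -/
theorem sylow_two_structure (S : Sylow 2 SL(2, F)) : ∃ (g : SL(2, F)) (a : ℕ), Reg g ∧ 2 ≤ a ∧
    (Nat.card (torusOf g)).factorization 2 = a ∧ Nat.card S = 2 ^ (a + 1) ∧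
    (S : Subgroup SL(2, F)) ≤ Subgroup.normalizer ((torusOf g : Subgroup SL(2, F)) : Set SL(2, F)) ∧
    ((Fintype.card F % 8 = 1 ∨ Fintype.card F % 8 = 7) → 3 ≤ a) ∧
    ((Fintype.card F % 8 = 3 ∨ Fintype.card F % 8 = 5) → a = 2) := by
  classical
  haveI : Fintype SL(2, F) := Fintype.ofFinite _
  obtain ⟨r, hr⟩ := hodd
  have hodd : Odd (Fintype.card F) := ⟨r, hr⟩
  obtain ⟨g, hg, d, m, hm1, hd, hdm, hd4⟩ : ∃ g : SL(2, F), Reg g ∧ ∃ d m : ℕ, ¬ 2 ∣ m ∧
      Nat.card (torusOf g) = d ∧ Nat.card SL(2, F) = d * (2 * m) ∧ 4 ∣ d := by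
    by_cases h4 : Fintype.card F % 4 = 1
    · obtain ⟨g, hg, hc⟩ := exists_torus_pred hodd (by have := Fintype.one_lt_card (α := F); omega)
      refine ⟨g, hg, _, Fintype.card F * ((Fintype.card F + 1) / 2), ?_, hc, ?_, by omega⟩
      · rw [Nat.prime_two.dvd_mul]; omega
      · obtain ⟨j, hj⟩ : ∃ j, Fintype.card F = 4 * j + 1 := ⟨Fintype.card F / 4, by omega⟩
        rw [Cfsg.Agent.Lib.Classical.card_SL_two, hj, show (4 * j + 1) ^ 2 - 1 = 16 * j ^ 2 + 8 * j by
          rw [show (4 * j + 1) ^ 2 = (16 * j ^ 2 + 8 * j) + 1 by ring]; exact Nat.add_sub_cancel _ _,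
          show (4 * j + 1 + 1) / 2 = 2 * j + 1 by omega, show 4 * j + 1 - 1 = 4 * j by omega]
        ring
    · obtain ⟨g, -, hg, hc⟩ := exists_torus_succ hodd
      refine ⟨g, hg, _, Fintype.card F * ((Fintype.card F - 1) / 2), ?_, hc, ?_, by omega⟩
      · rw [Nat.prime_two.dvd_mul]; omega
      · obtain ⟨j, hj⟩ : ∃ j, Fintype.card F = 4 * j + 3 := ⟨Fintype.card F / 4, by omega⟩
        rw [Cfsg.Agent.Lib.Classical.card_SL_two, hj, show (4 * j + 3) ^ 2 - 1 = 16 * j ^ 2 + 24 * j + 8 by
          rw [show (4 * j + 3) ^ 2 = (16 * j ^ 2 + 24 * j + 8) + 1 by ring]; exact Nat.add_sub_cancel _ _,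
          show (4 * j + 3 - 1) / 2 = 2 * j + 1 by omega]
        ring
  have hd0 : d ≠ 0 := hd ▸ Nat.card_pos.ne'
  have hm0 : m ≠ 0 := fun h => hm1 (h ▸ dvd_zero 2)
  set a := d.factorization 2 with ha
  have hG : (Nat.card SL(2, F)).factorization 2 = a + 1 := by
    rw [hdm, Nat.factorization_mul hd0 (by omega), Finsupp.add_apply, Nat.factorization_mul two_ne_zero hm0,
      Finsupp.add_apply, Nat.factorization_eq_zero_of_not_dvd hm1, add_zero, Nat.Prime.factorization_self Nat.prime_two]
  obtain ⟨R₀⟩ : Nonempty (Sylow 2 (Subgroup.normalizer ((torusOf g : Subgroup SL(2, F)) : Set SL(2, F)))) := inferInstance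
  have hcard : Nat.card ((R₀ : Subgroup _).map (Subgroup.normalizer ((torusOf g : Subgroup SL(2, F)) : Set SL(2, F))).subtype) =
      2 ^ (Nat.card SL(2, F)).factorization 2 := by
    rw [hG, Subgroup.card_map_of_injective (Subgroup.subtype_injective _), R₀.card_eq_multiplicity,
      hg.card_normalizer hodd, hd, Nat.factorization_mul two_ne_zero hd0, Finsupp.add_apply,
      Nat.Prime.factorization_self Nat.prime_two, ← ha, add_comm]
  let R : Sylow 2 SL(2, F) := Sylow.ofCard _ hcard
  obtain ⟨y, hy⟩ := MulAction.exists_smul_eq SL(2, F) R S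
  obtain ⟨h1, h2⟩ := hg.conj hodd y
  have hdq : d = Fintype.card F - 1 ∨ d = Fintype.card F + 1 := by
    rcases hg.card_torus hodd with ⟨-, h⟩ | ⟨-, h⟩ <;> omega
  refine ⟨y * g * y⁻¹, a, h1, ?_, by rw [h2, hd], by rw [S.card_eq_multiplicity, hG], fun z hz => ?_, fun h => ?_,
    fun h => ?_⟩
  · exact (Nat.Prime.pow_dvd_iff_le_factorization Nat.prime_two hd0).1 hd4
  · rw [← hy, Sylow.coe_subgroup_smul, Subgroup.mem_smul_pointwise_iff_exists] at hz
    obtain ⟨s, hs, rfl⟩ := hz
    have hs' : s ∈ (R₀ : Subgroup _).map (Subgroup.normalizer ((torusOf g : Subgroup SL(2, F)) : Set SL(2, F))).subtype := hs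
    obtain ⟨n, -, rfl⟩ := hs'
    exact conj_normalizer y _ n.2
  · refine (Nat.Prime.pow_dvd_iff_le_factorization Nat.prime_two hd0).1 ?_
    rcases hdq with e | e <;> omega
  · have h3 : ¬ 2 ^ 3 ∣ d := by rcases hdq with e | e <;> omega
    rw [Nat.Prime.pow_dvd_iff_le_factorization Nat.prime_two hd0, ← ha] at h3
    have := (Nat.Prime.pow_dvd_iff_le_factorization Nat.prime_two hd0).1 (show 2 ^ 2 ∣ d from hd4)
    omega

include hodd in
/-- Elements of a Sylow two-subgroup relative to its torus. -/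
theorem sylow_two_facts (S : Sylow 2 SL(2, F)) {g : SL(2, F)} {a : ℕ} (hg : Reg g) (ha : 2 ≤ a)
    (hfa : (Nat.card (torusOf g)).factorization 2 = a) (hS : Nat.card S = 2 ^ (a + 1))
    (hle : (S : Subgroup SL(2, F)) ≤ Subgroup.normalizer ((torusOf g : Subgroup SL(2, F)) : Set SL(2, F))) :
    Nat.card ((S : Subgroup SL(2, F)) ⊓ torusOf g : Subgroup SL(2, F)) = 2 ^ a ∧
    (∃ x ∈ (S : Subgroup SL(2, F)), x ∈ torusOf g ∧ orderOf x = 2 ^ a ∧ x ∉ Subgroup.center SL(2, F)) ∧
    (∃ w ∈ (S : Subgroup SL(2, F)), w ∉ torusOf g) ∧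
    (∀ y ∈ torusOf g, y * y ∈ (S : Subgroup SL(2, F)) → y ∈ (S : Subgroup SL(2, F))) := by
  classical
  set T := torusOf g
  set I := (S : Subgroup SL(2, F)) ⊓ T
  obtain ⟨b, hb, hIb⟩ := (Nat.dvd_prime_pow Nat.prime_two).1 (hS ▸ Subgroup.card_dvd_of_le (inf_le_left : I ≤ S))
  have hba : b ≤ a := by
    have h := Subgroup.card_dvd_of_le (inf_le_right : I ≤ T)
    rw [hIb] at h
    rw [← hfa]
    exact (Nat.Prime.pow_dvd_iff_le_factorization Nat.prime_two Nat.card_pos.ne').1 h
  have hidx : I.relIndex (S : Subgroup SL(2, F)) ∣ 2 := by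
    have e : I.relIndex (S : Subgroup SL(2, F)) = T.relIndex (S : Subgroup SL(2, F)) := Subgroup.inf_relIndex_left _ _
    rw [e]
    have h1 : T.relIndex (S : Subgroup SL(2, F)) ≤ T.relIndex (Subgroup.normalizer (T : Set SL(2, F))) :=
      Subgroup.relIndex_le_of_le_right hle (by
        intro h0
        have := Subgroup.card_dvd_of_le (Subgroup.le_normalizer (H := T))
        have e := Subgroup.card_mul_index (T.subgroupOf (Subgroup.normalizer (T : Set SL(2, F))))
        rw [Subgroup.relIndex] at h0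
        rw [h0, mul_zero] at e
        exact Nat.card_pos.ne' e.symm)
    have h2 : T.relIndex (Subgroup.normalizer (T : Set SL(2, F))) = 2 := by
      have e := Subgroup.card_mul_index (T.subgroupOf (Subgroup.normalizer (T : Set SL(2, F))))
      rw [hg.card_normalizer hodd, Nat.card_congr (Subgroup.subgroupOfEquivOfLe Subgroup.le_normalizer).toEquiv,
        mul_comm 2] at e
      exact Nat.eq_of_mul_eq_mul_left Nat.card_pos e
    have h3 : T.relIndex (S : Subgroup SL(2, F)) ≠ 0 := fun h0 => by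
      have e := Subgroup.card_mul_index (T.subgroupOf (S : Subgroup SL(2, F)))
      rw [Subgroup.relIndex] at h0
      rw [h0, mul_zero] at e
      exact Nat.card_pos.ne' e.symm
    rw [h2] at h1
    rcases (show T.relIndex (S : Subgroup SL(2, F)) = 1 ∨ T.relIndex (S : Subgroup SL(2, F)) = 2 by omega) with e | e <;>
      rw [e]
    exact one_dvd 2
  have hab : a ≤ b := by
    have e := Subgroup.card_mul_index (I.subgroupOf (S : Subgroup SL(2, F)))
    rw [Nat.card_congr (Subgroup.subgroupOfEquivOfLe inf_le_left).toEquiv, hIb, hS] at e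
    rw [Subgroup.relIndex] at hidx
    rcases (Nat.dvd_prime Nat.prime_two).1 hidx with h | h <;> rw [h] at e
    · rw [mul_one] at e
      have := Nat.pow_right_injective le_rfl e
      omega
    · rw [← pow_succ] at e
      have := Nat.pow_right_injective le_rfl e
      omega
  have hI : Nat.card I = 2 ^ a := by rw [hIb, le_antisymm hba hab]
  haveI : IsCyclic T := hg.isCyclic hodd
  haveI : IsCyclic I := isCyclic_of_injective (Subgroup.inclusion (inf_le_right : I ≤ T)) (Subgroup.inclusion_injective _)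
  obtain ⟨x, hx⟩ := IsCyclic.exists_generator (α := I)
  have hxo : orderOf (x : SL(2, F)) = 2 ^ a := by
    rw [Subgroup.orderOf_coe, orderOf_eq_card_of_forall_mem_zpowers hx, hI]
  refine ⟨hI, ⟨x, x.2.1, x.2.2, hxo, fun hz => ?_⟩, ?_, fun y hy hyy => ?_⟩
  · obtain ⟨e, he, hx'⟩ := (Two.mem_center_iff_sign _).1 hz
    have h1 : (x : SL(2, F)) ^ 2 = 1 := Subtype.ext (by
      rw [Matrix.SpecialLinearGroup.coe_pow, hx', _root_.smul_pow, one_pow, sq, he, one_smul]; rfl)
    have := Nat.le_of_dvd two_pos (orderOf_dvd_of_pow_eq_one h1)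
    rw [hxo] at this
    have : 2 ^ 2 ≤ 2 ^ a := Nat.pow_le_pow_right two_pos ha
    omega
  · by_contra hc
    push Not at hc
    have : I = (S : Subgroup SL(2, F)) := inf_eq_left.mpr hc
    rw [this, hS] at hI
    have := Nat.pow_right_injective le_rfl hI
    omega
  · haveI : Fintype I := Fintype.ofFinite I
    haveI : Fintype T := Fintype.ofFinite T
    have hy2 : (⟨y, hy⟩ : T) ^ (2 ^ a) = 1 := by
      have h1 : orderOf (⟨y, hy⟩ : T) ∣ Nat.card T := orderOf_dvd_natCard _
      have h2 : orderOf (⟨y, hy⟩ : T) ∣ 2 ^ (a + 1) := by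
        refine orderOf_dvd_of_pow_eq_one (Subtype.ext ?_)
        change y ^ 2 ^ (a + 1) = 1
        rw [pow_succ', pow_mul, sq y]
        have h := congrArg Subtype.val (pow_card_eq_one' (G := I) (x := ⟨y * y, hyy, mul_mem hy hy⟩))
        rw [hI] at h
        exact h
      obtain ⟨c, hc, hoc⟩ := (Nat.dvd_prime_pow Nat.prime_two).1 h2
      rw [hoc] at h1
      refine orderOf_dvd_iff_pow_eq_one.1 (hoc ▸ pow_dvd_pow 2 ?_)
      rw [← hfa]
      exact (Nat.Prime.pow_dvd_iff_le_factorization Nat.prime_two Nat.card_pos.ne').1 h1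
    have hle2 := IsCyclic.card_pow_eq_one_le (α := T) (show 0 < 2 ^ a by positivity)
    have heq : (Finset.univ.image (Subgroup.inclusion (inf_le_right : I ≤ T))) = Finset.univ.filter fun t : T => t ^ 2 ^ a = 1 := by
      refine Finset.eq_of_subset_of_card_le (fun t ht => ?_) ?_
      · obtain ⟨i, -, rfl⟩ := Finset.mem_image.mp ht
        refine Finset.mem_filter.mpr ⟨Finset.mem_univ _, Subtype.ext ?_⟩
        have h := congrArg Subtype.val (pow_card_eq_one' (G := I) (x := i))
        rw [hI] at h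
        exact h
      · rw [Finset.card_image_of_injective _ (Subgroup.inclusion_injective _),
          Finset.card_univ, ← Nat.card_eq_fintype_card, hI]
        exact hle2
    obtain ⟨i, -, hi⟩ := Finset.mem_image.mp (heq ▸ Finset.mem_filter.mpr ⟨Finset.mem_univ _, hy2⟩ :
      (⟨y, hy⟩ : T) ∈ Finset.univ.image (Subgroup.inclusion (inf_le_right : I ≤ T)))
    rw [← show (i : SL(2, F)) = y from congrArg Subtype.val hi]
    exact i.2.1

include hodd in
/-- Centraliser and normaliser of a Sylow two-subgroup. -/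
theorem sylow_two_full (S : Sylow 2 SL(2, F)) :
    Subgroup.centralizer ((S : Subgroup SL(2, F)) : Set SL(2, F)) = Subgroup.center SL(2, F) ∧
    ((Fintype.card F % 8 = 1 ∨ Fintype.card F % 8 = 7) →
      Subgroup.normalizer ((S : Subgroup SL(2, F)) : Set SL(2, F)) = (S : Subgroup SL(2, F))) ∧
    ((Fintype.card F % 8 = 3 ∨ Fintype.card F % 8 = 5) →
      Nat.card (Subgroup.normalizer ((S : Subgroup SL(2, F)) : Set SL(2, F))) = 3 * Nat.card S ∧
      ∃ x ∈ (S : Subgroup SL(2, F)), x ∉ Subgroup.center SL(2, F) ∧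
        ∀ v ∈ (S : Subgroup SL(2, F)), v ∉ Subgroup.center SL(2, F) →
          ∃ n ∈ Subgroup.normalizer ((S : Subgroup SL(2, F)) : Set SL(2, F)), n * x * n⁻¹ = v) := by
  classical
  haveI : Fintype SL(2, F) := Fintype.ofFinite _
  have h2 := Two.two_ne_zero_of_odd hodd
  obtain ⟨g, a, hg, ha, hfa, hS, hle, h1a, h3a⟩ := sylow_two_structure hodd S
  obtain ⟨hI, ⟨x, hxS, hxT, hxo, hxz⟩, ⟨w, hwS, hwT⟩, hL⟩ := sylow_two_facts hodd S hg ha hfa hS hle
  obtain ⟨hwinv, -⟩ := hg.outside hodd (hle hwS) hwT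
  obtain ⟨hxr, hxTeq⟩ := hg.of_mem_centralizer hxT hxz
  have hout : ∀ v ∈ (S : Subgroup SL(2, F)), v ∉ torusOf g → v * v = negOne F :=
    fun v hv hvT => (hg.outside hodd (hle hv) hvT).2
  -- the part of the torus normalizer that normalizes `S`
  have hstab : ∀ n ∈ Subgroup.normalizer ((torusOf g : Subgroup SL(2, F)) : Set SL(2, F)),
      n ∈ Subgroup.normalizer ((S : Subgroup SL(2, F)) : Set SL(2, F)) → n ∈ (S : Subgroup SL(2, F)) := by
    intro n hnN hn
    have key : ∀ y ∈ torusOf g, y ∈ Subgroup.normalizer ((S : Subgroup SL(2, F)) : Set SL(2, F)) →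
        y ∈ (S : Subgroup SL(2, F)) := fun y hy hyn => by
      have e := hwinv y⁻¹ (inv_mem hy)
      rw [inv_inv] at e
      have h : y * w * y⁻¹ * w⁻¹ ∈ (S : Subgroup SL(2, F)) :=
        mul_mem ((Subgroup.mem_normalizer_iff.mp hyn w).1 hwS) (inv_mem hwS)
      rw [show y * w * y⁻¹ * w⁻¹ = y * (w * y⁻¹ * w⁻¹) by group, e] at h
      exact hL y hy h
    by_cases hnT : n ∈ torusOf g
    · exact key n hnT hn
    · have hnw : n * w ∈ torusOf g := Subgroup.mem_centralizer_singleton_iff.mpr (by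
        have hgm : g ∈ torusOf g := Subgroup.mem_centralizer_singleton_iff.mpr rfl
        have e := hwinv g hgm
        have e' := (hg.outside hodd hnN hnT).1 g⁻¹ (inv_mem hgm)
        rw [inv_inv] at e'
        calc n * w * g = n * (w * g * w⁻¹) * n⁻¹ * (n * w) := by group
          _ = g * (n * w) := by rw [e, e'])
      have := key _ hnw (mul_mem hn (Subgroup.le_normalizer hwS))
      simpa using mul_mem this (inv_mem hwS)
  refine ⟨le_antisymm (fun y hy => ?_) (Subgroup.center_le_centralizer _), fun h8 => ?_, fun h8 => ?_⟩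
  · have hyT : y ∈ torusOf g := by
      rw [show torusOf g = torusOf x from hxTeq.symm]
      exact Subgroup.mem_centralizer_singleton_iff.mpr ((Subgroup.mem_centralizer_iff.mp hy) x hxS).symm
    refine mem_center_of_mul_self h2 ?_
    have e := hwinv y hyT
    rw [(Subgroup.mem_centralizer_iff.mp hy) w hwS, mul_inv_cancel_right] at e
    nth_rewrite 2 [e]
    exact mul_inv_cancel y
  · refine le_antisymm (fun n hn => hstab n ?_ hn) Subgroup.le_normalizer
    have hnx := (Subgroup.mem_normalizer_iff.mp hn x).1 hxS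
    have hmem : n * x * n⁻¹ ∈ torusOf g := by
      by_contra hc
      have e := hout _ hnx hc
      have h4 : x ^ 4 = 1 := by
        have : (n * x * n⁻¹) ^ 4 = 1 := by
          rw [show (4 : ℕ) = 2 * 2 from rfl, pow_mul, sq, sq, e]; exact negOne_mul_self F
        rwa [conj_pow, mul_inv_eq_one, mul_eq_left] at this
      have h5 := Nat.le_of_dvd (by norm_num) (orderOf_dvd_of_pow_eq_one h4)
      rw [hxo] at h5
      have : 2 ^ 3 ≤ 2 ^ a := Nat.pow_le_pow_right two_pos (h1a h8)
      omega
    have h' : n * x * n⁻¹ ∈ torusOf x := by rw [show torusOf x = torusOf g from hxTeq]; exact hmem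
    have h'' := (hxr.mem_normalizer_iff hodd n).2 (hxr.eq_or_inv h2 h' (by
      have := trace_of_conj n⁻¹ x
      rwa [inv_inv] at this))
    rwa [show torusOf x = torusOf g from hxTeq] at h''
  · have ha2 : a = 2 := h3a h8
    subst ha2
    have hsq : ∀ v ∈ (S : Subgroup SL(2, F)), v ∉ Subgroup.center SL(2, F) → v * v = negOne F := by
      intro v hv hvz
      by_cases hvT : v ∈ torusOf g
      · have h := congrArg Subtype.val (pow_card_eq_one'
          (G := ((S : Subgroup SL(2, F)) ⊓ torusOf g : Subgroup SL(2, F))) (x := ⟨v, hv, hvT⟩))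
        rw [hI] at h
        have h' : v * v * (v * v) = 1 := by rw [← sq, ← sq, ← pow_mul]; exact h
        rcases mem_center_cases (mem_center_of_mul_self h2 h') with e | e
        · exact absurd (mem_center_of_mul_self h2 e) hvz
        · exact e
      · exact hout v hv hvT
    have htr : ∀ v ∈ (S : Subgroup SL(2, F)), v ∉ Subgroup.center SL(2, F) →
        (v : Matrix (Fin 2) (Fin 2) F).trace = 0 := fun v hv hvz => by
      have e := congrArg (fun z : SL(2, F) => (z : Matrix (Fin 2) (Fin 2) F)) (hsq v hv hvz)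
      simp only [Matrix.SpecialLinearGroup.coe_mul, Two.sl_two_sq, coe_negOne] at e
      rw [show (!![-1, 0; 0, -1] : Matrix (Fin 2) (Fin 2) F) = -1 by ext i j; fin_cases i <;> fin_cases j <;> simp,
        sub_eq_iff_eq_add, neg_add_cancel] at e
      rcases smul_eq_zero.mp e with h | h
      · exact h
      · have := v.2
        rw [h, det_fin_two] at this
        simp at this
    have hreg : ∀ v ∈ (S : Subgroup SL(2, F)), v ∉ Subgroup.center SL(2, F) → Reg v := fun v hv hvz h => by
      rw [htr v hv hvz] at h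
      have : (2 : F) * 2 = 0 := by linear_combination -h
      exact h2 (mul_self_eq_zero.mp this)
    have hnorm : ∀ v ∈ (S : Subgroup SL(2, F)), v ∉ Subgroup.center SL(2, F) →
        (S : Subgroup SL(2, F)) ≤ Subgroup.normalizer ((torusOf v : Subgroup SL(2, F)) : Set SL(2, F)) := by
      intro v hv hvz s hs
      rw [(hreg v hv hvz).mem_normalizer_iff hodd]
      by_cases hsz : s ∈ Subgroup.center SL(2, F)
      · exact Or.inl (by rw [← Subgroup.mem_center_iff.1 hsz v, mul_inv_cancel_right])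
      · by_cases hsvz : s * v ∈ Subgroup.center SL(2, F)
        · refine Or.inl ?_
          have e := Subgroup.mem_center_iff.1 hsvz v
          rw [← mul_assoc] at e
          rw [← mul_right_cancel e, mul_inv_cancel_right]
        · refine Or.inr ?_
          have e1 := hsq _ (mul_mem hs hv) hsvz
          have e2 := hsq s hs hsz
          have e3 : v * s * v = s := mul_left_cancel (a := s) (by rw [e2, ← e1]; group)
          rw [mul_inv_eq_iff_eq_mul]
          calc s * v = v⁻¹ * (v * s * v) := by group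
            _ = v⁻¹ * s := by rw [e3]
    set V := Finset.univ.filter fun v : SL(2, F) => v ∈ (S : Subgroup SL(2, F)) ∧ v ∉ Subgroup.center SL(2, F) with hV
    have hVcard : V.card = 6 := by
      have h1 : (Finset.univ.filter fun v : SL(2, F) => v ∈ (S : Subgroup SL(2, F))).card = 8 := by
        rw [← Fintype.card_subtype, ← Nat.card_eq_fintype_card]; exact hS
      have h3 : (Finset.univ.filter fun v : SL(2, F) => v ∈ (S : Subgroup SL(2, F)) ∧
          ¬ v ∉ Subgroup.center SL(2, F)).card = 2 := by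
        have hzS : negOne F ∈ (S : Subgroup SL(2, F)) := by rw [← hsq x hxS hxz]; exact mul_mem hxS hxS
        rw [show (Finset.univ.filter fun v : SL(2, F) => v ∈ (S : Subgroup SL(2, F)) ∧
            ¬ v ∉ Subgroup.center SL(2, F)) = {1, negOne F} from ?_, Finset.card_pair]
        · intro e
          have e' := congrArg (fun u : SL(2, F) => (u : Matrix (Fin 2) (Fin 2) F) 0 0) e
          simp [coe_negOne] at e'
          exact h2 (by linear_combination e')
        · ext v
          simp only [Finset.mem_filter, Finset.mem_univ, true_and, not_not, Finset.mem_insert, Finset.mem_singleton]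
          refine ⟨fun h => mem_center_cases h.2, ?_⟩
          rintro (rfl | rfl)
          · exact ⟨one_mem _, one_mem _⟩
          · exact ⟨hzS, negOne_mem_center F⟩
      have h4 := Finset.card_filter_add_card_filter_not
        (s := Finset.univ.filter fun v : SL(2, F) => v ∈ (S : Subgroup SL(2, F))) (fun v => v ∉ Subgroup.center SL(2, F))
      rw [h1, Finset.filter_filter, Finset.filter_filter, ← hV, h3] at h4
      omega
    have hhit : ∀ v ∈ V, ∃ n ∈ Subgroup.normalizer ((S : Subgroup SL(2, F)) : Set SL(2, F)), n * x * n⁻¹ = v := by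
      intro v hv
      obtain ⟨hvS, hvz⟩ := (Finset.mem_filter.mp hv).2
      obtain ⟨y, hy⟩ := isConj_iff.1 ((hreg x hxS hxz).isConj hodd
        (show (v : Matrix (Fin 2) (Fin 2) F).trace = (x : Matrix (Fin 2) (Fin 2) F).trace by
          rw [htr v hvS hvz, htr x hxS hxz]))
      set N := Subgroup.normalizer ((torusOf v : Subgroup SL(2, F)) : Set SL(2, F))
      have hyN : ((y • S : Sylow 2 SL(2, F)) : Subgroup SL(2, F)) ≤ N := fun z hz => by
        rw [Sylow.coe_subgroup_smul, Subgroup.mem_smul_pointwise_iff_exists] at hz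
        obtain ⟨s, hs, rfl⟩ := hz
        have h := conj_normalizer y s (hnorm x hxS hxz hs)
        rwa [hy] at h
      obtain ⟨k, hk⟩ := MulAction.exists_smul_eq N ((y • S).subtype hyN) (S.subtype (hnorm v hvS hvz))
      rw [Sylow.smul_subtype] at hk
      have hk' : (k : SL(2, F)) • (y • S) = S := Sylow.subtype_injective hk
      rw [← mul_smul] at hk'
      have hkn : (k : SL(2, F)) * y ∈ Subgroup.normalizer ((S : Subgroup SL(2, F)) : Set SL(2, F)) :=
        Sylow.smul_eq_iff_mem_normalizer.1 hk'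
      have hkv : (k : SL(2, F)) * y * x * ((k : SL(2, F)) * y)⁻¹ = k * v * (k : SL(2, F))⁻¹ := by
        rw [← hy]; group
      rcases ((hreg v hvS hvz).mem_normalizer_iff hodd k).1 k.2 with e | e
      · exact ⟨_, hkn, hkv.trans e⟩
      · refine ⟨_, mul_mem hkn (Subgroup.le_normalizer hwS), ?_⟩
        calc (k : SL(2, F)) * y * w * x * ((k : SL(2, F)) * y * w)⁻¹
            = k * y * (w * x * w⁻¹) * (k * y : SL(2, F))⁻¹ := by group
          _ = ((k : SL(2, F)) * y * x * ((k : SL(2, F)) * y)⁻¹)⁻¹ := by rw [hwinv x hxT]; group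
          _ = v := by rw [hkv, e, inv_inv]
    set NS := Subgroup.normalizer ((S : Subgroup SL(2, F)) : Set SL(2, F))
    have hmap : ∀ n ∈ Finset.univ.filter (fun n : SL(2, F) => n ∈ NS), n * x * n⁻¹ ∈ V := fun n hn => by
      refine Finset.mem_filter.mpr ⟨Finset.mem_univ _, (Subgroup.mem_normalizer_iff.mp (Finset.mem_filter.mp hn).2 x).1 hxS,
        fun hz => hxz ?_⟩
      have : n * x * n⁻¹ = x := by
        have e := Subgroup.mem_center_iff.1 hz n
        rw [show n * (n * x * n⁻¹) = n * n * x * n⁻¹ by group, show n * x * n⁻¹ * n = n * x by group,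
          mul_inv_eq_iff_eq_mul] at e
        have e' : n * x = x * n := mul_left_cancel (a := n) (by rw [← mul_assoc, e]; group)
        rw [e', mul_inv_cancel_right]
      rwa [this] at hz
    have hfib : ∀ v ∈ V, ((Finset.univ.filter fun n : SL(2, F) => n ∈ NS).filter fun n => n * x * n⁻¹ = v).card = 4 := by
      intro v hv
      obtain ⟨n₀, hn₀, hv₀⟩ := hhit v hv
      rw [show (4 : ℕ) = Nat.card ((S : Subgroup SL(2, F)) ⊓ torusOf g : Subgroup SL(2, F)) from hI.symm,
        ← Fintype.card_coe, ← Nat.card_eq_fintype_card]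
      refine Nat.card_congr
        { toFun := fun n => ⟨n₀⁻¹ * n.1, ?_⟩
          invFun := fun i => ⟨n₀ * i.1, ?_⟩
          left_inv := fun n => Subtype.ext (mul_inv_cancel_left _ _)
          right_inv := fun i => Subtype.ext (inv_mul_cancel_left _ _) }
      · obtain ⟨hn, he⟩ := Finset.mem_filter.mp n.2
        have hc : n₀⁻¹ * n.1 ∈ torusOf g := by
          rw [show torusOf g = torusOf x from hxTeq.symm]
          refine Subgroup.mem_centralizer_singleton_iff.mpr ?_
          calc n₀⁻¹ * n.1 * x = n₀⁻¹ * (n.1 * x * n.1⁻¹) * n.1 := by group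
            _ = n₀⁻¹ * (n₀ * x * n₀⁻¹) * n.1 := by rw [he, hv₀]
            _ = x * (n₀⁻¹ * n.1) := by group
        exact ⟨hstab _ (Subgroup.le_normalizer hc) (mul_mem (inv_mem hn₀) (Finset.mem_filter.mp hn).2), hc⟩
      · refine Finset.mem_filter.mpr ⟨Finset.mem_filter.mpr ⟨Finset.mem_univ _,
          mul_mem hn₀ (Subgroup.le_normalizer i.2.1)⟩, ?_⟩
        calc n₀ * i.1 * x * (n₀ * i.1)⁻¹ = n₀ * (i.1 * x) * i.1⁻¹ * n₀⁻¹ := by group
          _ = n₀ * (x * i.1) * i.1⁻¹ * n₀⁻¹ := by rw [hg.centralizer_comm i.2.2 hxT]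
          _ = v := by rw [← hv₀]; group
    refine ⟨?_, x, hxS, hxz, fun v hv hvz => hhit v (Finset.mem_filter.mpr ⟨Finset.mem_univ _, hv, hvz⟩)⟩
    rw [Nat.card_eq_fintype_card, Fintype.card_subtype, Finset.card_eq_sum_card_fiberwise hmap,
      Finset.sum_congr rfl hfib, Finset.sum_const, hVcard, hS]
    rfl

include hodd in
/-- Centraliser and normaliser of a Sylow two-subgroup. -/
theorem sylow_two_result (S : Sylow 2 SL(2, F)) :
    Subgroup.centralizer ((S : Subgroup SL(2, F)) : Set SL(2, F)) = Subgroup.center SL(2, F) ∧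
    ((Fintype.card F % 8 = 1 ∨ Fintype.card F % 8 = 7) →
      Subgroup.normalizer ((S : Subgroup SL(2, F)) : Set SL(2, F)) = (S : Subgroup SL(2, F))) ∧
    ((Fintype.card F % 8 = 3 ∨ Fintype.card F % 8 = 5) →
      Nat.card (Subgroup.normalizer ((S : Subgroup SL(2, F)) : Set SL(2, F))) = 3 * Nat.card S) := by
  obtain ⟨h1, h2, h3⟩ := sylow_two_full hodd S
  exact ⟨h1, h2, fun h => (h3 h).1⟩

end Cfsg.Agent.Lib.TwoChar
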