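import Cfsg.Agent.Lib.TwoChar.Normalizers

/-!
# Odd Sylow subgroups of `SL(2, q)` away from the characteristic
-/

set_option autoImplicit false

open scoped MatrixGroups

namespace Cfsg.Agent.Lib.TwoChar

open Cfsg Matrix

universe u

variable {F : Type u} [Field F] [Fintype F] (hodd : Odd (Fintype.card F)) (ℓ : ℕ) [Fact ℓ.Prime] (hℓ : ℓ ≠ 2)

include hodd hℓ in
theorem odd_sylow_aux {g₀ : SL(2, F)} (hg₀ : Reg g₀) (hdiv : ℓ ∣ Nat.card (torusOf g₀)) (m : ℕ)
    (hm : ¬ ℓ ∣ m) (hGm : Nat.card SL(2, F) = Nat.card (torusOf g₀) * m) (P : Sylow ℓ SL(2, F)) :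
    ∃ g : SL(2, F), Reg g ∧ Nat.card (torusOf g) = Nat.card (torusOf g₀) ∧
      Subgroup.centralizer ((P : Subgroup SL(2, F)) : Set SL(2, F)) = torusOf g ∧
      Subgroup.normalizer ((P : Subgroup SL(2, F)) : Set SL(2, F)) =
        Subgroup.normalizer ((torusOf g : Subgroup SL(2, F)) : Set SL(2, F)) ∧
      (P : Subgroup SL(2, F)) ≤ torusOf g := by
  have hm0 : m ≠ 0 := fun h => hm (h ▸ dvd_zero ℓ)
  have hv : (Nat.card SL(2, F)).factorization ℓ = (Nat.card (torusOf g₀)).factorization ℓ := by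
    rw [hGm, Nat.factorization_mul Nat.card_pos.ne' hm0, Finsupp.add_apply,
      Nat.factorization_eq_zero_of_not_dvd hm, add_zero]
  obtain ⟨g, hg, hc, hle⟩ := exists_torus_of_sylow hodd hg₀ ℓ hv P
  have hk : 1 ≤ (Nat.card SL(2, F)).factorization ℓ :=
    (Nat.Prime.dvd_iff_one_le_factorization Fact.out Nat.card_pos.ne').1 (hGm ▸ hdiv.mul_right m)
  have hne : (P : Subgroup SL(2, F)) ≠ ⊥ := fun e => by
    have h1 := P.card_eq_multiplicity
    rw [e, Subgroup.card_bot] at h1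
    have := Nat.one_lt_pow (by omega) (Fact.out : ℓ.Prime).one_lt (n := (Nat.card SL(2, F)).factorization ℓ)
    omega
  obtain ⟨x, hx, hx1⟩ := (P : Subgroup SL(2, F)).bot_or_exists_ne_one.resolve_left hne
  have hxz : x ∉ Subgroup.center SL(2, F) := fun hz => hx1 <| by
    have h1 : x * x = 1 := by
      rcases mem_center_cases hz with e | e
      · rw [e, one_mul]
      · rw [e]; exact negOne_mul_self F
    obtain ⟨k, hk'⟩ := IsPGroup.iff_orderOf.1 P.2 ⟨x, hx⟩
    rw [← Subgroup.orderOf_coe] at hk'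
    have h2 : orderOf x ∣ 2 := orderOf_dvd_of_pow_eq_one (by rw [sq, h1])
    change orderOf x = ℓ ^ k at hk'
    have h3 : Nat.Coprime (ℓ ^ k) 2 :=
      ((Nat.coprime_primes (Fact.out : ℓ.Prime) Nat.prime_two).2 hℓ).pow_left k
    rw [hk'] at h2
    rw [← orderOf_eq_one_iff, hk']
    exact Nat.eq_one_of_dvd_coprimes h3 dvd_rfl h2
  exact ⟨g, hg, hc, (hg.subgroup_torus hodd hle hx hxz).1, (hg.subgroup_torus hodd hle hx hxz).2, hle⟩

include hodd hℓ in
theorem odd_sylow_pred (h : ℓ ∣ Fintype.card F - 1) (P : Sylow ℓ SL(2, F)) :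
    ∃ g : SL(2, F), Reg g ∧ Nat.card (torusOf g) = Fintype.card F - 1 ∧
      Subgroup.centralizer ((P : Subgroup SL(2, F)) : Set SL(2, F)) = torusOf g ∧
      Subgroup.normalizer ((P : Subgroup SL(2, F)) : Set SL(2, F)) =
        Subgroup.normalizer ((torusOf g : Subgroup SL(2, F)) : Set SL(2, F)) ∧
      (P : Subgroup SL(2, F)) ≤ torusOf g := by
  have h1 := Fintype.one_lt_card (α := F)
  have hℓ2 := (Fact.out : ℓ.Prime).two_le
  have hle := Nat.le_of_dvd (by omega) h
  obtain ⟨g₀, hg₀, hc⟩ := exists_torus_pred hodd (by obtain ⟨r, hr⟩ := hodd; omega)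
  obtain ⟨g, hg, hc', hr⟩ := odd_sylow_aux hodd ℓ hℓ hg₀ (hc ▸ h) (Fintype.card F * (Fintype.card F + 1))
    (fun hd => by
      rcases (Fact.out : ℓ.Prime).dvd_mul.1 hd with e | e
      · have e' := Nat.dvd_sub e h
        rw [show Fintype.card F - (Fintype.card F - 1) = 1 by omega] at e'
        exact (Fact.out : ℓ.Prime).ne_one (Nat.dvd_one.mp e')
      · have e' := Nat.dvd_sub e h
        rw [show Fintype.card F + 1 - (Fintype.card F - 1) = 2 by omega] at e'
        exact hℓ ((Nat.prime_dvd_prime_iff_eq Fact.out Nat.prime_two).1 e'))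
    (by rw [hc, Cfsg.Agent.Lib.Classical.card_SL_two, show Fintype.card F ^ 2 - 1 = (Fintype.card F + 1) * (Fintype.card F - 1) by
          rw [← Nat.sq_sub_sq]]
        ring) P
  exact ⟨g, hg, hc'.trans hc, hr⟩

include hodd hℓ in
theorem odd_sylow_succ (h : ℓ ∣ Fintype.card F + 1) (P : Sylow ℓ SL(2, F)) :
    ∃ g : SL(2, F), Reg g ∧ Nat.card (torusOf g) = Fintype.card F + 1 ∧
      Subgroup.centralizer ((P : Subgroup SL(2, F)) : Set SL(2, F)) = torusOf g ∧
      Subgroup.normalizer ((P : Subgroup SL(2, F)) : Set SL(2, F)) =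
        Subgroup.normalizer ((torusOf g : Subgroup SL(2, F)) : Set SL(2, F)) ∧
      (P : Subgroup SL(2, F)) ≤ torusOf g := by
  have h1 := Fintype.one_lt_card (α := F)
  obtain ⟨g₀, -, hg₀, hc⟩ := exists_torus_succ hodd
  obtain ⟨g, hg, hc', hr⟩ := odd_sylow_aux hodd ℓ hℓ hg₀ (hc ▸ h) (Fintype.card F * (Fintype.card F - 1))
    (fun hd => by
      rcases (Fact.out : ℓ.Prime).dvd_mul.1 hd with e | e
      · have e' := Nat.dvd_sub h e
        rw [show Fintype.card F + 1 - Fintype.card F = 1 by omega] at e'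
        exact (Fact.out : ℓ.Prime).ne_one (Nat.dvd_one.mp e')
      · have e' := Nat.dvd_sub h e
        rw [show Fintype.card F + 1 - (Fintype.card F - 1) = 2 by omega] at e'
        exact hℓ ((Nat.prime_dvd_prime_iff_eq Fact.out Nat.prime_two).1 e'))
    (by rw [hc, Cfsg.Agent.Lib.Classical.card_SL_two, show Fintype.card F ^ 2 - 1 = (Fintype.card F + 1) * (Fintype.card F - 1) by
          rw [← Nat.sq_sub_sq]]
        ring) P
  exact ⟨g, hg, hc'.trans hc, hr⟩

end Cfsg.Agent.Lib.TwoChar
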