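import Cfsg.Agent.Lib.TwoChar.Torus

/-!
# Maximal tori of `SL(2, q)`, `q` odd, and their normalisers
-/

set_option autoImplicit false

open scoped MatrixGroups

namespace Cfsg.Agent.Lib.TwoChar

open Cfsg Matrix

universe u v

section Abstract

variable {N : Type v} [Group N] [Finite N]

/-- The class number of a group with a cyclic-like subgroup of index two inverted outside. -/
theorem card_classes_inverted (C : Subgroup N) (m : ℕ) (hC : Nat.card C = 2 * m) (hN : Nat.card N = 4 * m)
    (hab : ∀ x ∈ C, ∀ y ∈ C, x * y = y * x) (hinv : ∀ n, n ∉ C → ∀ x ∈ C, n * x * n⁻¹ = x⁻¹) (z : N) (hz : z ∈ C)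
    (hz1 : z ≠ 1) (hzz : z * z = 1) (hsq : ∀ x ∈ C, x * x = 1 → x = 1 ∨ x = z) (hout : ∃ n, n ∉ C) :
    Nat.card (ConjClasses N) = m + 3 := by
  classical
  haveI := Fintype.ofFinite N
  have hm : 0 < m := by
    rcases Nat.eq_zero_or_pos m with rfl | h
    · have : 0 < Nat.card N := Nat.card_pos
      omega
    · exact h
  have hidx : C.index = 2 := by
    have := Subgroup.card_mul_index C
    rw [hC, hN] at this
    exact Nat.eq_of_mul_eq_mul_left (by omega : 0 < 2 * m) (by rw [this]; ring)
  have hmul : ∀ a b : N, a * b ∈ C ↔ (a ∈ C ↔ b ∈ C) := fun a b => Subgroup.mul_mem_iff_of_index_two hidx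
  have hinv' : ∀ n, n ∉ C → ∀ x ∈ C, Commute n x → x = 1 ∨ x = z := fun n hn x hx hc => hsq x hx (by
    have h := hinv n hn x hx
    rw [hc.eq, mul_inv_cancel_right] at h
    nth_rewrite 2 [h]
    exact mul_inv_cancel x)
  have hzc : ∀ a : N, Commute z a := fun a => by
    by_cases ha : a ∈ C
    · exact hab z hz a ha
    · have h := hinv a ha z hz
      rw [inv_eq_of_mul_eq_one_right hzz, mul_inv_eq_iff_eq_mul] at h
      exact h.symm
  obtain ⟨n₀, hn₀⟩ := hout
  have hcount : ∀ a : N, (Finset.univ.filter fun b : N => Commute a b).card =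
      if a = 1 ∨ a = z then 4 * m else if a ∈ C then 2 * m else 4 := by
    intro a
    split_ifs with h1 h2
    · rw [Finset.filter_true_of_mem, Finset.card_univ, ← Nat.card_eq_fintype_card, hN]
      intro b _
      rcases h1 with rfl | rfl
      · exact Commute.one_left b
      · exact hzc b
    · push Not at h1
      rw [← hC, Nat.card_eq_fintype_card, Fintype.card_subtype]
      refine congrArg Finset.card (Finset.filter_congr fun b _ => ⟨fun hc => ?_, fun hb => hab a h2 b hb⟩)
      by_contra hb
      rcases hinv' b hb a h2 hc.symm with e | e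
      · exact h1.1 e
      · exact h1.2 e
    · push Not at h1
      have e : (Finset.univ.filter fun b : N => Commute a b) = {1, z, a, a * z} := by
        ext b
        simp only [Finset.mem_filter, Finset.mem_univ, true_and, Finset.mem_insert, Finset.mem_singleton]
        constructor
        · intro hc
          by_cases hb : b ∈ C
          · rcases hinv' a h2 b hb hc with e | e
            · exact Or.inl e
            · exact Or.inr (Or.inl e)
          · have hab' : a⁻¹ * b ∈ C := by rw [hmul, inv_mem_iff]; exact iff_of_false h2 hb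
            rcases hinv' a h2 _ hab' ((Commute.refl a).inv_right.mul_right hc) with e | e
            · exact Or.inr (Or.inr (Or.inl (inv_mul_eq_one.mp e).symm))
            · exact Or.inr (Or.inr (Or.inr (by rw [← e, mul_inv_cancel_left])))
        · rintro (rfl | rfl | rfl | rfl)
          · exact Commute.one_right a
          · exact (hzc a).symm
          · exact Commute.refl b
          · exact (Commute.refl a).mul_right (hzc a).symm
      have haz : a * z ∉ C := fun h => h2 (by rw [hmul] at h; exact h.2 hz)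
      rw [e, Finset.card_insert_of_notMem, Finset.card_insert_of_notMem, Finset.card_insert_of_notMem,
        Finset.card_singleton]
      · simp only [Finset.mem_singleton]
        exact fun h => hz1 (mul_left_cancel (h.symm.trans (mul_one a).symm))
      · simp only [Finset.mem_insert, Finset.mem_singleton, not_or]
        exact ⟨fun h => h2 (h ▸ hz), fun h => haz (h ▸ hz)⟩
      · simp only [Finset.mem_insert, Finset.mem_singleton, not_or]
        exact ⟨Ne.symm hz1, fun h => h2 (h ▸ C.one_mem), fun h => haz (h ▸ C.one_mem)⟩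
  have hpairs : Nat.card {p : N × N // Commute p.1 p.2} = ∑ a : N, (Finset.univ.filter fun b : N => Commute a b).card := by
    rw [Nat.card_eq_fintype_card, Fintype.card_subtype]
    simp only [Finset.card_filter, Fintype.sum_prod_type]
  have hsum : ∑ a : N, (Finset.univ.filter fun b : N => Commute a b).card = 4 * m * (m + 3) := by
    rw [Finset.sum_congr rfl fun a _ => hcount a]
    have e1 : (Finset.univ.filter fun a : N => a = 1 ∨ a = z).card = 2 := by
      rw [show (Finset.univ.filter fun a : N => a = 1 ∨ a = z) = {1, z} by ext a; simp, Finset.card_pair (Ne.symm hz1)]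
    have e2 : (Finset.univ.filter fun a : N => ¬(a = 1 ∨ a = z) ∧ a ∈ C).card + 2 = 2 * m := by
      rw [← hC, Nat.card_eq_fintype_card, Fintype.card_subtype, ← e1, ← Finset.card_union_of_disjoint]
      · congr 1
        ext a
        simp only [Finset.mem_union, Finset.mem_filter, Finset.mem_univ, true_and]
        constructor
        · rintro (⟨-, h⟩ | (rfl | rfl))
          · exact h
          · exact C.one_mem
          · exact hz
        · intro h
          by_cases h' : a = 1 ∨ a = z
          · exact Or.inr h'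
          · exact Or.inl ⟨h', h⟩
      · exact Finset.disjoint_filter.mpr fun a _ h => h.1
    have e3 : (Finset.univ.filter fun a : N => a ∈ C).card + (Finset.univ.filter fun a : N => ¬ a ∈ C).card = 4 * m := by
      rw [Finset.card_filter_add_card_filter_not, Finset.card_univ, ← Nat.card_eq_fintype_card, hN]
    have e4 : (Finset.univ.filter fun a : N => a ∈ C).card = 2 * m := by
      rw [← hC, Nat.card_eq_fintype_card, Fintype.card_subtype]
    have hsp : ∀ a : N, (if a = 1 ∨ a = z then 4 * m else if a ∈ C then 2 * m else 4) =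
        (if a = 1 ∨ a = z then 4 * m else 0) + (if ¬(a = 1 ∨ a = z) ∧ a ∈ C then 2 * m else 0) +
          (if ¬ a ∈ C then 4 else 0) := fun a => by
      have h1 : a = 1 ∨ a = z → a ∈ C := by
        rintro (rfl | rfl)
        · exact C.one_mem
        · exact hz
      by_cases ha : a = 1 ∨ a = z
      · simp [ha, h1 ha]
      · by_cases hb : a ∈ C <;> simp [ha, hb]
    simp only [hsp, Finset.sum_add_distrib, ← Finset.sum_filter, Finset.sum_const, smul_eq_mul, e1]
    have e5 : (Finset.univ.filter fun a : N => ¬ a ∈ C).card = 2 * m := by omega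
    obtain ⟨k, rfl⟩ : ∃ k, m = k + 1 := ⟨m - 1, by omega⟩
    have e6 : (Finset.univ.filter fun a : N => ¬(a = 1 ∨ a = z) ∧ a ∈ C).card = 2 * k := by omega
    rw [e5, e6]
    ring
  have h := card_comm_eq_card_conjClasses_mul_card N
  rw [hpairs, hsum, hN, mul_comm (4 * m)] at h
  exact (Nat.eq_of_mul_eq_mul_right (by omega) h).symm

end Abstract

variable {F : Type u} [Field F]

/-- A regular semisimple element. -/
def Reg (g : SL(2, F)) : Prop := (g : Matrix (Fin 2) (Fin 2) F).trace ^ 2 ≠ 4

theorem Reg.not_scalar {g : SL(2, F)} (hg : Reg g) : ¬ Two.IsScalar2 (g : Matrix (Fin 2) (Fin 2) F) := fun h => by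
  obtain ⟨e, he⟩ := (Two.isScalar2_iff _).1 h
  apply hg
  have hd := g.2
  rw [he, det_smul, det_one, Fintype.card_fin, mul_one] at hd
  rw [he, trace_smul, trace_one, Fintype.card_fin, smul_eq_mul]
  push_cast
  linear_combination (4 : F) * hd

theorem Reg.not_mem_center {g : SL(2, F)} (hg : Reg g) : g ∉ Subgroup.center SL(2, F) := fun hc => by
  obtain ⟨e, -, he⟩ := (Two.mem_center_iff_sign g).1 hc
  exact hg.not_scalar ((Two.isScalar2_iff _).2 ⟨e, he⟩)

theorem Reg.mem_centralizer_iff {g : SL(2, F)} (hg : Reg g) (h : SL(2, F)) :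
    h ∈ Subgroup.centralizer ({g} : Set SL(2, F)) ↔
      ∃ x y : F, (h : Matrix (Fin 2) (Fin 2) F) = x • 1 + y • (g : Matrix (Fin 2) (Fin 2) F) := by
  rw [← Two.commute_iff _ hg.not_scalar, Subgroup.mem_centralizer_singleton_iff]
  exact ⟨fun e => (congrArg (fun z : SL(2, F) => (z : Matrix (Fin 2) (Fin 2) F)) e).symm,
    fun e => Subtype.ext e.eq.symm⟩

theorem Reg.centralizer_comm {g : SL(2, F)} (hg : Reg g) {x y : SL(2, F)}
    (hx : x ∈ Subgroup.centralizer ({g} : Set SL(2, F))) (hy : y ∈ Subgroup.centralizer ({g} : Set SL(2, F))) :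
    x * y = y * x := by
  obtain ⟨a, b, hab⟩ := (hg.mem_centralizer_iff x).1 hx
  obtain ⟨c, e, hce⟩ := (hg.mem_centralizer_iff y).1 hy
  refine Subtype.ext ?_
  rw [Matrix.SpecialLinearGroup.coe_mul, Matrix.SpecialLinearGroup.coe_mul, hab, hce]
  exact ((((Commute.one_left _).smul_left a).add_left
    ((((Commute.one_right _).smul_right c).add_right ((Commute.refl _).smul_right e)).smul_left b))).eq

theorem Reg.of_mem_centralizer {g h : SL(2, F)} (hg : Reg g) (hh : h ∈ Subgroup.centralizer ({g} : Set SL(2, F)))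
    (hz : h ∉ Subgroup.center SL(2, F)) :
    Reg h ∧ Subgroup.centralizer ({h} : Set SL(2, F)) = Subgroup.centralizer ({g} : Set SL(2, F)) := by
  obtain ⟨x, y, hxy⟩ := (hg.mem_centralizer_iff h).1 hh
  have e2 : x ^ 2 + x * y * (g : Matrix (Fin 2) (Fin 2) F).trace + y ^ 2 = 1 := by
    have := h.2
    rw [hxy, Two.det_combo, g.2, mul_one] at this
    exact this
  have hy : y ≠ 0 := fun e => hz ((Two.mem_center_iff_sign h).2 ⟨x, by
    rw [e] at e2; linear_combination e2, by rw [hxy, e, zero_smul, add_zero]⟩)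
  have hr : Reg h := fun e => by
    rw [hxy, trace_add, trace_smul, trace_smul, trace_one, Fintype.card_fin, smul_eq_mul, smul_eq_mul] at e
    push_cast at e
    have : y ^ 2 * ((g : Matrix (Fin 2) (Fin 2) F).trace ^ 2 - 4) = 0 := by linear_combination e - 4 * e2
    rcases mul_eq_zero.mp this with e' | e'
    · exact hy (pow_eq_zero_iff two_ne_zero |>.mp e')
    · exact hg (sub_eq_zero.mp e')
  refine ⟨hr, le_antisymm (fun k hk => ?_) (fun k hk => Subgroup.mem_centralizer_singleton_iff.mpr
    (hg.centralizer_comm hk hh))⟩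
  obtain ⟨a, b, hab⟩ := (hr.mem_centralizer_iff k).1 hk
  refine (hg.mem_centralizer_iff k).2 ⟨a + b * x, b * y, ?_⟩
  rw [hab, hxy, smul_add, smul_smul, smul_smul, add_smul, add_assoc]

theorem mem_center_of_mul_self (h2 : (2 : F) ≠ 0) {c : SL(2, F)} (hc : c * c = 1) :
    c ∈ Subgroup.center SL(2, F) := by
  have e := congrArg (fun z : SL(2, F) => (z : Matrix (Fin 2) (Fin 2) F)) hc
  simp only [Matrix.SpecialLinearGroup.coe_mul, Matrix.SpecialLinearGroup.coe_one, Two.sl_two_sq] at e
  set t := (c : Matrix (Fin 2) (Fin 2) F).trace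
  have e' : t • (c : Matrix (Fin 2) (Fin 2) F) = (2 : F) • 1 := by
    rw [two_smul]; exact sub_eq_iff_eq_add.mp e
  have ht0 : t ≠ 0 := fun h => by
    rw [h, zero_smul] at e'
    exact h2 (by simpa using (congrFun (congrFun e' 0) 0).symm)
  have hc' : (c : Matrix (Fin 2) (Fin 2) F) = (2 / t) • 1 := by
    rw [div_eq_inv_mul, mul_smul, ← e', inv_smul_smul₀ ht0]
  refine (Two.mem_center_iff_sign c).2 ⟨2 / t, ?_, hc'⟩
  have := c.2
  rwa [hc', det_smul, det_one, Fintype.card_fin, mul_one, sq] at this

theorem Reg.eq_or_inv (h2 : (2 : F) ≠ 0) {g h : SL(2, F)} (hg : Reg g)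
    (hh : h ∈ Subgroup.centralizer ({g} : Set SL(2, F)))
    (ht : (h : Matrix (Fin 2) (Fin 2) F).trace = (g : Matrix (Fin 2) (Fin 2) F).trace) : h = g ∨ h = g⁻¹ := by
  obtain ⟨x, y, hxy⟩ := (hg.mem_centralizer_iff h).1 hh
  set t := (g : Matrix (Fin 2) (Fin 2) F).trace with htd
  have e1 : 2 * x + y * t = t := by
    have e := congrArg Matrix.trace hxy
    rw [ht, trace_add, trace_smul, trace_smul, trace_one, Fintype.card_fin, smul_eq_mul, smul_eq_mul, ← htd] at e
    push_cast at e
    linear_combination -e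
  have e2 : x ^ 2 + x * y * t + y ^ 2 = 1 := by
    have := h.2
    rw [hxy, Two.det_combo, g.2, mul_one] at this
    exact this
  have h4 : (y ^ 2 - 1) * (t ^ 2 - 4) = 0 := by linear_combination (2 * x + y * t + t) * e1 - 4 * e2
  rcases mul_eq_zero.mp h4 with h5 | h5
  · rcases mul_eq_zero.mp (show (y - 1) * (y + 1) = 0 by linear_combination h5) with e | e
    · left
      have hy : y = 1 := sub_eq_zero.mp e
      have hx : x = 0 := mul_left_cancel₀ h2 (by rw [hy] at e1; linear_combination e1)
      exact Subtype.ext (by rw [hxy, hx, hy, zero_smul, zero_add, one_smul])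
    · right
      have hy : y = -1 := eq_neg_of_add_eq_zero_left e
      have hx : x = t := mul_left_cancel₀ h2 (by rw [hy] at e1; linear_combination e1)
      refine Subtype.ext ?_
      rw [hxy, hx, hy, Matrix.SpecialLinearGroup.coe_inv, adjugate_fin_two, htd, trace_fin_two]
      ext i j
      fin_cases i <;> fin_cases j <;> simp <;> ring
  · exact absurd (sub_eq_zero.mp h5) hg

variable [Fintype F] (hodd : Odd (Fintype.card F))

include hodd in
theorem Reg.isConj {g h : SL(2, F)} (hg : Reg g)
    (ht : (h : Matrix (Fin 2) (Fin 2) F).trace = (g : Matrix (Fin 2) (Fin 2) F).trace) : IsConj g h := by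
  have hh : Reg h := by unfold Reg; rw [ht]; exact hg
  exact Two.sl_isConj_of_trace g h hg.not_scalar hh.not_scalar ht.symm fun δ _ =>
    Two.values_of_odd hodd _ hg δ

/-- The torus through a regular semisimple element. -/
abbrev torusOf (g : SL(2, F)) : Subgroup SL(2, F) := Subgroup.centralizer ({g} : Set SL(2, F))

omit [Fintype F] in
theorem centralizer_diag {g : SL(2, F)} (hg : Reg g) (g01 : (g : Matrix (Fin 2) (Fin 2) F) 0 1 = 0)
    (g10 : (g : Matrix (Fin 2) (Fin 2) F) 1 0 = 0) (h : SL(2, F)) :
    h ∈ torusOf g ↔ (h : Matrix (Fin 2) (Fin 2) F) 0 1 = 0 ∧ (h : Matrix (Fin 2) (Fin 2) F) 1 0 = 0 := by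
  constructor
  · intro hh
    obtain ⟨x, y, hxy⟩ := (hg.mem_centralizer_iff h).1 hh
    rw [hxy]
    simp [g01, g10]
  · rintro ⟨h01, h10⟩
    refine Subgroup.mem_centralizer_singleton_iff.mpr (Subtype.ext ?_)
    rw [Matrix.SpecialLinearGroup.coe_mul, Matrix.SpecialLinearGroup.coe_mul]
    ext i j
    fin_cases i <;> fin_cases j <;> simp [Matrix.mul_apply, g01, g10, h01, h10, mul_comm]

omit [Fintype F] in
theorem centralizer_conj (x g : SL(2, F)) :
    torusOf (x * g * x⁻¹) = (torusOf g).map (MulAut.conj x).toMonoidHom := by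
  ext h
  constructor
  · intro hh
    refine ⟨x⁻¹ * h * x, Subgroup.mem_centralizer_singleton_iff.mpr ?_, by simp [mul_assoc]⟩
    have e := Subgroup.mem_centralizer_singleton_iff.mp hh
    calc x⁻¹ * h * x * g = x⁻¹ * (h * (x * g * x⁻¹)) * x := by group
      _ = x⁻¹ * (x * g * x⁻¹ * h) * x := by rw [e]
      _ = g * (x⁻¹ * h * x) := by group
  · rintro ⟨k, hk, rfl⟩
    refine Subgroup.mem_centralizer_singleton_iff.mpr ?_
    have e := Subgroup.mem_centralizer_singleton_iff.mp hk
    simp only [MulEquiv.coe_toMonoidHom, MulAut.conj_apply]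
    calc x * k * x⁻¹ * (x * g * x⁻¹) = x * (k * g) * x⁻¹ := by group
      _ = x * (g * k) * x⁻¹ := by rw [e]
      _ = x * g * x⁻¹ * (x * k * x⁻¹) := by group

include hodd in
theorem Reg.split_torus {g : SL(2, F)} (hg : Reg g)
    (hr : ∃ a : F, a * a - (g : Matrix (Fin 2) (Fin 2) F).trace * a + 1 = 0) :
    Nat.card (torusOf g) = Fintype.card F - 1 ∧ IsCyclic (torusOf g) := by
  obtain ⟨a, ha⟩ := hr
  have ha0 : a ≠ 0 := fun h => by simp [h] at ha
  set dg : SL(2, F) := Two.diagSL (Units.mk0 a ha0) with hdg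
  have hm : (dg : Matrix (Fin 2) (Fin 2) F) = !![a, 0; 0, a⁻¹] := by simp [hdg, Two.diagSL]
  have htr : (dg : Matrix (Fin 2) (Fin 2) F).trace = (g : Matrix (Fin 2) (Fin 2) F).trace := by
    rw [hm, trace_fin_two]
    simp
    field_simp
    linear_combination ha
  have hd : Reg dg := by unfold Reg; rw [htr]; exact hg
  let e : Fˣ ≃* torusOf dg :=
    { toFun := fun s => ⟨Two.diagSL s, (centralizer_diag hd (by simp [hm]) (by simp [hm]) _).2
        (by simp [Two.diagSL])⟩
      invFun := fun h => Units.mk0 ((h.1 : Matrix (Fin 2) (Fin 2) F) 0 0) (fun h0 => by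
        have hh := (centralizer_diag hd (by simp [hm]) (by simp [hm]) _).1 h.2
        have := h.1.2
        rw [det_fin_two, h0, hh.1] at this
        simp at this)
      left_inv := fun s => Units.ext (by simp [Two.diagSL])
      right_inv := fun h => by
        obtain ⟨h01, h10⟩ := (centralizer_diag hd (by simp [hm]) (by simp [hm]) _).1 h.2
        have hdet := h.1.2
        rw [det_fin_two, h01, h10, mul_zero, sub_zero] at hdet
        refine Subtype.ext (Subtype.ext ?_)
        ext i j
        fin_cases i <;> fin_cases j <;> simp [Two.diagSL, h01, h10]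
        exact (eq_inv_of_mul_eq_one_right hdet).symm
      map_mul' := fun s t => Subtype.ext (Subtype.ext (by
        change (Two.diagSL (s * t) : Matrix (Fin 2) (Fin 2) F) =
          (Two.diagSL s : Matrix (Fin 2) (Fin 2) F) * (Two.diagSL t : Matrix (Fin 2) (Fin 2) F)
        ext i j
        fin_cases i <;> fin_cases j <;> simp [Two.diagSL, Matrix.mul_apply, mul_comm])) }
  obtain ⟨x, hx⟩ := isConj_iff.1 (hg.isConj hodd htr)
  let em : torusOf g ≃* torusOf dg :=
    ((torusOf g).equivMapOfInjective (MulAut.conj x).toMonoidHom (MulAut.conj x).injective).trans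
      (MulEquiv.subgroupCongr (by rw [← centralizer_conj, hx]))
  exact ⟨by rw [Nat.card_congr (em.trans e.symm).toEquiv, Nat.card_units, Nat.card_eq_fintype_card],
    isCyclic_of_surjective (e.trans em.symm).toMonoidHom (MulEquiv.surjective _)⟩

include hodd in
theorem Reg.isCyclic {g : SL(2, F)} (hg : Reg g) : IsCyclic (torusOf g) := by
  by_cases hr : ∃ a : F, a * a - (g : Matrix (Fin 2) (Fin 2) F).trace * a + 1 = 0
  · exact (hg.split_torus hodd hr).2
  · exact NoRoot.isCyclic_centralizer hodd hr

include hodd in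
theorem Reg.card_torus {g : SL(2, F)} (hg : Reg g) :
    (¬ NoRoot g ∧ Nat.card (torusOf g) = Fintype.card F - 1) ∨
      (NoRoot g ∧ Nat.card (torusOf g) = Fintype.card F + 1) := by
  by_cases hr : ∃ a : F, a * a - (g : Matrix (Fin 2) (Fin 2) F).trace * a + 1 = 0
  · exact Or.inl ⟨fun h => h hr, (hg.split_torus hodd hr).1⟩
  · exact Or.inr ⟨hr, NoRoot.card_centralizer hodd hr⟩

include hodd in
theorem Reg.mem_normalizer_iff {g : SL(2, F)} (hg : Reg g) (n : SL(2, F)) :
    n ∈ Subgroup.normalizer ((torusOf g : Subgroup SL(2, F)) : Set SL(2, F)) ↔ n * g * n⁻¹ = g ∨ n * g * n⁻¹ = g⁻¹ := by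
  have hgmem : g ∈ torusOf g := Subgroup.mem_centralizer_singleton_iff.mpr rfl
  constructor
  · intro hn
    refine hg.eq_or_inv (Two.two_ne_zero_of_odd hodd) ((Subgroup.mem_normalizer_iff.mp hn g).1 hgmem) ?_
    rw [← inv_inv n]
    simpa using trace_of_conj n⁻¹ g
  · intro hn
    have hT : torusOf (n * g * n⁻¹) = torusOf g := by
      rcases hn with e | e
      · rw [e]
      · rw [e]
        exact (hg.of_mem_centralizer (inv_mem hgmem) fun h => hg.not_mem_center (inv_mem_iff.mp h)).2
    rw [Subgroup.mem_normalizer_iff]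
    intro k
    conv_rhs => rw [← hT, centralizer_conj]
    exact (Subgroup.mem_map_iff_mem (MulAut.conj n).injective (K := torusOf g) (x := k)).symm

include hodd in
/-- Elements of the normaliser outside the torus invert it and square to minus one. -/
theorem Reg.outside {g : SL(2, F)} (hg : Reg g) {n : SL(2, F)}
    (hn : n ∈ Subgroup.normalizer ((torusOf g : Subgroup SL(2, F)) : Set SL(2, F))) (hnot : n ∉ torusOf g) :
    (∀ x ∈ torusOf g, n * x * n⁻¹ = x⁻¹) ∧ n * n = negOne F := by
  have h2 := Two.two_ne_zero_of_odd hodd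
  have hinv : ∀ x ∈ torusOf g, n * x * n⁻¹ = x⁻¹ := by
    intro x hx
    by_cases hz : x ∈ Subgroup.center SL(2, F)
    · rw [Subgroup.mem_center_iff.1 hz n, mul_inv_cancel_right]
      rcases mem_center_one_or hz with rfl | rfl
      · exact inv_one.symm
      · exact (inv_eq_of_mul_eq_one_right (negOne_mul_self F)).symm
    · obtain ⟨hr, hT⟩ := hg.of_mem_centralizer hx hz
      rcases hr.eq_or_inv h2 (h := n * x * n⁻¹) (hT.symm ▸ (Subgroup.mem_normalizer_iff.mp hn x).1 hx)
        (by rw [← inv_inv n]; simpa using trace_of_conj n⁻¹ x) with e | e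
      · have hmem : n ∈ Subgroup.centralizer ({x} : Set SL(2, F)) :=
          Subgroup.mem_centralizer_singleton_iff.mpr (mul_inv_eq_iff_eq_mul.mp e)
        rw [hT] at hmem
        exact absurd hmem hnot
      · exact e
  refine ⟨hinv, ?_⟩
  have hgmem : g ∈ torusOf g := Subgroup.mem_centralizer_singleton_iff.mpr rfl
  have hnn : n * n ∈ torusOf g := Subgroup.mem_centralizer_singleton_iff.mpr (by
    have e := hinv g hgmem
    have e' := hinv g⁻¹ (inv_mem hgmem)
    rw [inv_inv] at e'
    calc n * n * g = n * (n * g * n⁻¹) * n⁻¹ * (n * n) := by group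
      _ = n * g⁻¹ * n⁻¹ * (n * n) := by rw [e]
      _ = g * (n * n) := by rw [e'])
  have hsq : n * n * (n * n) = 1 := by
    have e := hinv _ hnn
    rw [show n * (n * n) * n⁻¹ = n * n by group] at e
    nth_rewrite 2 [e]
    exact mul_inv_cancel _
  rcases mem_center_one_or (mem_center_of_mul_self h2 hsq) with e | e
  · exact absurd (Subgroup.center_le_centralizer _ (mem_center_of_mul_self h2 e)) hnot
  · exact e
where
  mem_center_one_or {z : SL(2, F)} (hz : z ∈ Subgroup.center SL(2, F)) : z = 1 ∨ z = negOne F := by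
    obtain ⟨e, he, hz'⟩ := (Two.mem_center_iff_sign z).1 hz
    rcases mul_self_eq_one_iff.1 he with rfl | rfl
    · exact Or.inl (Subtype.ext (by rw [hz', one_smul, Matrix.SpecialLinearGroup.coe_one]))
    · refine Or.inr (Subtype.ext ?_)
      rw [hz', coe_negOne]
      ext i j; fin_cases i <;> fin_cases j <;> simp

include hodd in
theorem Reg.exists_outside {g : SL(2, F)} (hg : Reg g) :
    ∃ n ∈ Subgroup.normalizer ((torusOf g : Subgroup SL(2, F)) : Set SL(2, F)), n ∉ torusOf g := by
  obtain ⟨x, hx⟩ := isConj_iff.1 (hg.isConj hodd (trace_inv g))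
  refine ⟨x, (hg.mem_normalizer_iff hodd x).2 (Or.inr hx), fun h => ?_⟩
  rw [Subgroup.mem_centralizer_singleton_iff.mp h, mul_inv_cancel_right] at hx
  exact hg.not_mem_center (mem_center_of_mul_self (Two.two_ne_zero_of_odd hodd) (by
    nth_rewrite 2 [hx]; exact mul_inv_cancel g))

include hodd in
theorem Reg.card_normalizer {g : SL(2, F)} (hg : Reg g) :
    Nat.card (Subgroup.normalizer ((torusOf g : Subgroup SL(2, F)) : Set SL(2, F))) = 2 * Nat.card (torusOf g) := by
  set N := Subgroup.normalizer ((torusOf g : Subgroup SL(2, F)) : Set SL(2, F))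
  have hle : torusOf g ≤ N := Subgroup.le_normalizer
  obtain ⟨w, hw, hwn⟩ := hg.exists_outside hodd
  have hidx : ((torusOf g).subgroupOf N).index = 2 := by
    rw [Subgroup.index_eq_two_iff]
    refine ⟨⟨w, hw⟩, fun b => ?_⟩
    simp only [Subgroup.mem_subgroupOf, Subgroup.coe_mul]
    by_cases hb : (b : SL(2, F)) ∈ torusOf g
    · exact Or.inr ⟨hb, fun h => hwn (by simpa using mul_mem (inv_mem hb) h)⟩
    · refine Or.inl ⟨Subgroup.mem_centralizer_singleton_iff.mpr ?_, hb⟩
      have e := (hg.outside hodd hw hwn).1 g (Subgroup.mem_centralizer_singleton_iff.mpr rfl)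
      have e' := (hg.outside hodd b.2 hb).1 g⁻¹ (inv_mem (Subgroup.mem_centralizer_singleton_iff.mpr rfl))
      rw [inv_inv] at e'
      calc (b : SL(2, F)) * w * g = b * (w * g * w⁻¹) * (b : SL(2, F))⁻¹ * (b * w) := by group
        _ = g * (b * w) := by rw [e, e']
  rw [← Subgroup.card_mul_index ((torusOf g).subgroupOf N), hidx,
    Nat.card_congr (Subgroup.subgroupOfEquivOfLe hle).toEquiv, mul_comm]

include hodd in
theorem Reg.even_card {g : SL(2, F)} (hg : Reg g) : ∃ m, Nat.card (torusOf g) = 2 * m := by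
  obtain ⟨r, hr⟩ := hodd
  rcases hg.card_torus ⟨r, hr⟩ with ⟨-, h⟩ | ⟨-, h⟩
  · exact ⟨r, by rw [h]; omega⟩
  · exact ⟨r + 1, by rw [h]; omega⟩

include hodd in
theorem Reg.card_classes_normalizer {g : SL(2, F)} (hg : Reg g) :
    Nat.card (ConjClasses (Subgroup.normalizer ((torusOf g : Subgroup SL(2, F)) : Set SL(2, F)))) =
      Nat.card (torusOf g) / 2 + 3 := by
  set N := Subgroup.normalizer ((torusOf g : Subgroup SL(2, F)) : Set SL(2, F))
  have hle : torusOf g ≤ N := Subgroup.le_normalizer
  have h2 := Two.two_ne_zero_of_odd hodd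
  obtain ⟨m, hm⟩ := hg.even_card hodd
  obtain ⟨w, hw, hwn⟩ := hg.exists_outside hodd
  have hzc : negOne F ∈ torusOf g := Subgroup.center_le_centralizer _ (negOne_mem_center F)
  rw [hm, Nat.mul_div_cancel_left m two_pos]
  refine card_classes_inverted ((torusOf g).subgroupOf N) m
    (by rw [Nat.card_congr (Subgroup.subgroupOfEquivOfLe hle).toEquiv, hm])
    (by rw [hg.card_normalizer hodd, hm]; ring)
    (fun x hx y hy => Subtype.ext (hg.centralizer_comm hx hy))
    (fun n hn x hx => Subtype.ext ((hg.outside hodd n.2 hn).1 x.1 hx))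
    ⟨negOne F, hle hzc⟩ hzc (fun e => ?_) (Subtype.ext (negOne_mul_self F)) (fun x hx hxx => ?_) ⟨⟨w, hw⟩, hwn⟩
  · have e' := congrArg (fun u : N => ((u : SL(2, F)) : Matrix (Fin 2) (Fin 2) F) 0 0) e
    simp [coe_negOne] at e'
    exact h2 (by linear_combination -e')
  · have hc := mem_center_of_mul_self h2 (congrArg Subtype.val hxx)
    obtain ⟨e, he, hz'⟩ := (Two.mem_center_iff_sign _).1 hc
    rcases mul_self_eq_one_iff.1 he with rfl | rfl
    · exact Or.inl (Subtype.ext (Subtype.ext (by rw [hz', one_smul]; rfl)))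
    · refine Or.inr (Subtype.ext (Subtype.ext ?_))
      change _ = (negOne F : Matrix (Fin 2) (Fin 2) F)
      rw [hz', coe_negOne]
      ext i j; fin_cases i <;> fin_cases j <;> simp

end Cfsg.Agent.Lib.TwoChar
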