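import Cfsg.Agent.Lib.TwoChar.PSL
import Cfsg.Agent.Lib.Two.Order

/-!
# Non-split tori of `SL(2, q)`, `q` odd
-/

set_option autoImplicit false

open scoped MatrixGroups ComplexConjugate

namespace Cfsg.Agent.Lib.TwoChar

open Cfsg Cfsg.Agent.Lib.Char Matrix

universe u

variable {F : Type u} [Field F]

/-- The characteristic polynomial has no root in the field. -/
def NoRoot (g : SL(2, F)) : Prop := ¬ ∃ a : F, a * a - (g : Matrix (Fin 2) (Fin 2) F).trace * a + 1 = 0

theorem noRoot_iff_no_eigen (g : SL(2, F)) :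
    NoRoot g ↔ ∀ (c : F) (v : Fin 2 → F), v ≠ 0 → (g : Matrix (Fin 2) (Fin 2) F).mulVec v ≠ c • v := by
  constructor
  · intro h c v hv e
    refine h ⟨c, ?_⟩
    have hdet : ((g : Matrix (Fin 2) (Fin 2) F) - c • (1 : Matrix (Fin 2) (Fin 2) F)).det = 0 :=
      exists_mulVec_eq_zero_iff.1 ⟨v, hv, by rw [Matrix.sub_mulVec, Matrix.smul_mulVec, one_mulVec, e, sub_self]⟩
    have h1 := g.2
    rw [det_fin_two] at h1
    simp [det_fin_two] at hdet
    rw [trace_fin_two]
    linear_combination hdet - h1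
  · rintro h ⟨a, ha⟩
    refine Two.no_root_of_elliptic (Matrix.SpecialLinearGroup.toGL g) h a ?_
    change a ^ 2 - a * (g : Matrix (Fin 2) (Fin 2) F).trace + (g : Matrix (Fin 2) (Fin 2) F).det = 0
    rw [g.2]
    linear_combination ha

theorem NoRoot.not_scalar {g : SL(2, F)} (h : NoRoot g) : ¬ Two.IsScalar2 (g : Matrix (Fin 2) (Fin 2) F) :=
  Two.not_scalar_of_elliptic (Matrix.SpecialLinearGroup.toGL g) ((noRoot_iff_no_eigen g).1 h)

theorem NoRoot.not_mem_center {g : SL(2, F)} (h : NoRoot g) : g ∉ Subgroup.center SL(2, F) := fun hc => by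
  obtain ⟨e, -, he⟩ := (Two.mem_center_iff_sign g).1 hc
  exact h.not_scalar ((Two.isScalar2_iff _).2 ⟨e, he⟩)

theorem trace_of_conj (x g : SL(2, F)) :
    (((x⁻¹ * g * x : SL(2, F)) : Matrix (Fin 2) (Fin 2) F)).trace = (g : Matrix (Fin 2) (Fin 2) F).trace :=
  (Two.sl_trace_of_isConj (isConj_iff.2 ⟨x⁻¹, by rw [inv_inv]⟩)).symm

theorem trace_inv (g : SL(2, F)) :
    ((g⁻¹ : SL(2, F)) : Matrix (Fin 2) (Fin 2) F).trace = (g : Matrix (Fin 2) (Fin 2) F).trace := by
  rw [Matrix.SpecialLinearGroup.coe_inv, trace_fin_two, trace_fin_two, adjugate_fin_two]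
  simp [add_comm]

/-- Elements of the centraliser of an elliptic element with the same trace. -/
theorem eq_or_inv_of_trace (h2 : (2 : F) ≠ 0) {g h : SL(2, F)} (hg : NoRoot g)
    (hh : h ∈ Subgroup.centralizer ({g} : Set SL(2, F)))
    (ht : (h : Matrix (Fin 2) (Fin 2) F).trace = (g : Matrix (Fin 2) (Fin 2) F).trace) : h = g ∨ h = g⁻¹ := by
  have hc : Commute (g : Matrix (Fin 2) (Fin 2) F) (h : Matrix (Fin 2) (Fin 2) F) :=
    (congrArg (fun z : SL(2, F) => (z : Matrix (Fin 2) (Fin 2) F))
      (Subgroup.mem_centralizer_singleton_iff.mp hh)).symm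
  obtain ⟨x, y, hxy⟩ := (Two.commute_iff _ hg.not_scalar _).1 hc
  set t := (g : Matrix (Fin 2) (Fin 2) F).trace with htd
  have e1 : 2 * x + y * t = t := by
    have e := congrArg Matrix.trace hxy
    rw [ht, trace_add, trace_smul, trace_smul, trace_one, Fintype.card_fin, smul_eq_mul, smul_eq_mul, ← htd] at e
    push_cast at e
    linear_combination -e
  have e2 : x ^ 2 + x * y * t + y ^ 2 = 1 := by
    have := h.2
    rw [hxy, Two.det_combo, g.2, mul_one] at this
    exact this
  have h4 : (y ^ 2 - 1) * (t ^ 2 - 4) = 0 := by linear_combination (2 * x + y * t + t) * e1 - 4 * e2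
  rcases mul_eq_zero.mp h4 with h5 | h5
  · rcases mul_eq_zero.mp (show (y - 1) * (y + 1) = 0 by linear_combination h5) with e | e
    · left
      have hy : y = 1 := sub_eq_zero.mp e
      have hx : x = 0 := mul_left_cancel₀ h2 (by rw [hy] at e1; linear_combination e1)
      exact Subtype.ext (by rw [hxy, hx, hy, zero_smul, zero_add, one_smul])
    · right
      have hy : y = -1 := eq_neg_of_add_eq_zero_left e
      have hx : x = t := mul_left_cancel₀ h2 (by rw [hy] at e1; linear_combination e1)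
      refine Subtype.ext ?_
      rw [hxy, hx, hy, Matrix.SpecialLinearGroup.coe_inv, adjugate_fin_two, htd, trace_fin_two]
      ext i j
      fin_cases i <;> fin_cases j <;> simp <;> ring
  · exact absurd ⟨t / 2, by rw [← htd]; field_simp; linear_combination -h5⟩ hg

variable [Fintype F] (hodd : Odd (Fintype.card F))

include hodd in
theorem NoRoot.trace_sq {g : SL(2, F)} (hg : NoRoot g) : (g : Matrix (Fin 2) (Fin 2) F).trace ^ 2 ≠ 4 :=
  trace_sq_ne_four_of_no_eigen hodd g ((noRoot_iff_no_eigen g).1 hg)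

include hodd in
theorem isConj_of_trace {g h : SL(2, F)} (hg : NoRoot g)
    (ht : (h : Matrix (Fin 2) (Fin 2) F).trace = (g : Matrix (Fin 2) (Fin 2) F).trace) : IsConj g h := by
  have hh : NoRoot h := by unfold NoRoot; rw [ht]; exact hg
  exact Two.sl_isConj_of_trace g h hg.not_scalar hh.not_scalar ht.symm fun δ _ =>
    Two.values_of_odd hodd _ (hg.trace_sq hodd) δ

include hodd in
/-- The centraliser of an elliptic element. -/
theorem NoRoot.card_centralizer {g : SL(2, F)} (hg : NoRoot g) :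
    Nat.card (Subgroup.centralizer ({g} : Set SL(2, F))) = Fintype.card F + 1 := by
  classical
  let γ := Matrix.SpecialLinearGroup.toGL g
  let f : Subgroup.centralizer ({γ} : Set (GL (Fin 2) F)) →* Fˣ :=
    GeneralLinearGroup.det.comp (Subgroup.subtype _)
  have hsurj : Function.Surjective f := fun δ => by
    obtain ⟨x, y, hxy⟩ := Two.values_of_odd hodd (g : Matrix (Fin 2) (Fin 2) F).trace (hg.trace_sq hodd) δ
    have hd : (x • (1 : Matrix (Fin 2) (Fin 2) F) + y • (g : Matrix (Fin 2) (Fin 2) F)).det = δ := by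
      rw [Two.det_combo, g.2, mul_one, hxy]
    refine ⟨⟨GeneralLinearGroup.mkOfDetNeZero _ (by rw [hd]; exact δ.ne_zero), ?_⟩, Units.ext hd⟩
    exact Subgroup.mem_centralizer_singleton_iff.mpr (Units.ext
      ((Two.commute_iff _ hg.not_scalar _).2 ⟨x, y, rfl⟩).eq.symm)
  let e : Subgroup.centralizer ({g} : Set SL(2, F)) ≃ f.ker :=
    { toFun := fun X => ⟨⟨Matrix.SpecialLinearGroup.toGL X.1, Subgroup.mem_centralizer_singleton_iff.mpr (by
          rw [← map_mul, Subgroup.mem_centralizer_singleton_iff.mp X.2, map_mul])⟩, Units.ext X.1.2⟩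
      invFun := fun X => ⟨⟨(X.1.1 : Matrix (Fin 2) (Fin 2) F), congrArg Units.val X.2⟩,
        Subgroup.mem_centralizer_singleton_iff.mpr (Subtype.ext
          (congrArg Units.val (Subgroup.mem_centralizer_singleton_iff.mp X.1.2) : _))⟩
      left_inv := fun X => Subtype.ext (Subtype.ext rfl)
      right_inv := fun X => Subtype.ext (Subtype.ext (Units.ext rfl)) }
  have h := Subgroup.card_eq_card_quotient_mul_card_subgroup f.ker
  rw [Nat.card_congr (QuotientGroup.quotientKerEquivOfSurjective f hsurj).toEquiv, ← Nat.card_congr e,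
    Two.card_centralizer_elliptic γ ((noRoot_iff_no_eigen g).1 hg), Nat.card_eq_fintype_card (α := Fˣ),
    Fintype.card_units] at h
  refine Nat.eq_of_mul_eq_mul_left (show 0 < Fintype.card F - 1 by have := Fintype.one_lt_card (α := F); omega) ?_
  rw [← h, mul_comm, ← Nat.sq_sub_sq, one_pow]

include hodd in
/-- The centraliser of an elliptic element is cyclic. -/
theorem NoRoot.isCyclic_centralizer {g : SL(2, F)} (hg : NoRoot g) :
    IsCyclic (Subgroup.centralizer ({g} : Set SL(2, F))) := by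
  classical
  haveI : Fact (Irreducible (Two.quadPoly (g : Matrix (Fin 2) (Fin 2) F).trace)) := ⟨Two.irreducible_quadPoly hg⟩
  have hinj : Function.Injective (Two.quadHom g) := RingHom.injective (Two.quadHom g).toRingHom
  have hex : ∀ X : Subgroup.centralizer ({g} : Set SL(2, F)),
      ∃ z, Two.quadHom g z = (X.1 : Matrix (Fin 2) (Fin 2) F) := fun X => by
    obtain ⟨x, y, hxy⟩ := (Two.commute_iff _ hg.not_scalar _).1 (congrArg
      (fun z : SL(2, F) => (z : Matrix (Fin 2) (Fin 2) F)) (Subgroup.mem_centralizer_singleton_iff.mp X.2)).symm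
    exact ⟨x • 1 + y • AdjoinRoot.root _, by rw [map_add, map_smul, map_smul, map_one, Two.quadHom_root, hxy]⟩
  choose z hz using hex
  let f : Subgroup.centralizer ({g} : Set SL(2, F)) →* AdjoinRoot (Two.quadPoly (g : Matrix (Fin 2) (Fin 2) F).trace) :=
    { toFun := z
      map_one' := hinj (by rw [hz, map_one]; rfl)
      map_mul' := fun X Y => hinj (by rw [map_mul, hz, hz, hz]; rfl) }
  exact isCyclic_of_subgroup_isDomain f fun X Y e => Subtype.ext (Subtype.ext (by
    rw [← hz, ← hz]; exact congrArg _ e))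

variable (C : Subgroup SL(2, F)) (hcard : Nat.card C = Fintype.card F + 1)

include hodd hcard in
theorem noRoot_of_mem {c : SL(2, F)} (hc : c ∈ C) (hz : c ∉ Subgroup.center SL(2, F)) : NoRoot c := by
  intro hroot
  obtain ⟨a, ha⟩ := hroot
  have hpow : c ^ (Fintype.card F + 1) = 1 := by
    have := congrArg Subtype.val (pow_card_eq_one' (G := C) (x := ⟨c, hc⟩))
    rwa [hcard] at this
  apply hz
  have h2 : (2 : F) ≠ 0 := Two.two_ne_zero_of_odd hodd
  by_cases ht : (c : Matrix (Fin 2) (Fin 2) F).trace ^ 2 = 4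
  · obtain ⟨p, hp⟩ := CharP.exists F
    obtain ⟨n, hpp, hn⟩ := FiniteField.card F p
    haveI : Fact p.Prime := ⟨hpp⟩
    have hcop : Nat.Coprime p (Fintype.card F + 1) :=
      (Nat.Prime.coprime_iff_not_dvd hpp).2 fun h =>
        hpp.not_dvd_one ((Nat.dvd_add_right (hn ▸ dvd_pow_self p n.ne_zero)).1 h)
    have hz1 := Two.pow_char_mem_center p c ht
    obtain ⟨m, hm⟩ := Nat.exists_mul_mod_eq_one_of_coprime hcop (by have := Fintype.one_lt_card (α := F); omega)
    have : (c ^ p) ^ m = c := by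
      rw [← pow_mul, ← Nat.div_add_mod (p * m) (Fintype.card F + 1), pow_add, pow_mul, hpow, one_pow, one_mul, hm.2, pow_one]
    rw [← this]
    exact pow_mem hz1 m
  · have h1 := Two.pow_card_pred_eq_one c a ha ht
    obtain ⟨r, hr⟩ := hodd
    have hsq : c ^ 2 = 1 := by
      rw [show Fintype.card F + 1 = (Fintype.card F - 1) + 2 by omega, pow_add, h1, one_mul] at hpow
      exact hpow
    rw [sq] at hsq
    have e := congrArg (fun z : SL(2, F) => (z : Matrix (Fin 2) (Fin 2) F)) hsq
    simp only [Matrix.SpecialLinearGroup.coe_mul, Matrix.SpecialLinearGroup.coe_one, Two.sl_two_sq] at e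
    set t := (c : Matrix (Fin 2) (Fin 2) F).trace
    have e' : t • (c : Matrix (Fin 2) (Fin 2) F) = (2 : F) • 1 := by
      rw [two_smul]; exact sub_eq_iff_eq_add.mp e
    have ht0 : t ≠ 0 := fun h => by
      rw [h, zero_smul] at e'
      exact h2 (by simpa using (congrFun (congrFun e' 0) 0).symm)
    refine (Two.mem_center_iff_sign c).2 ⟨2 / t, ?_, ?_⟩
    · have := c.2
      have hc' : (c : Matrix (Fin 2) (Fin 2) F) = (2 / t) • 1 := by
        rw [div_eq_inv_mul, mul_smul, ← e', inv_smul_smul₀ ht0]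
      rw [hc', det_smul, det_one, Fintype.card_fin, mul_one, sq] at this
      exact this
    · rw [div_eq_inv_mul, mul_smul, ← e', inv_smul_smul₀ ht0]

include hodd hcard in
theorem centralizer_eq_of_mem [IsCyclic C] {c : SL(2, F)} (hc : c ∈ C) (hz : c ∉ Subgroup.center SL(2, F)) :
    Subgroup.centralizer ({c} : Set SL(2, F)) = C := by
  classical
  have : Fintype SL(2, F) := Fintype.ofFinite _
  letI : CommGroup C := IsCyclic.commGroup
  refine (Subgroup.eq_of_le_of_card_ge (fun x hx => Subgroup.mem_centralizer_singleton_iff.mpr ?_) ?_).symm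
  · exact congrArg Subtype.val (mul_comm (⟨x, hx⟩ : C) ⟨c, hc⟩)
  · rw [(noRoot_of_mem hodd C hcard hc hz).card_centralizer hodd, hcard]

end Cfsg.Agent.Lib.TwoChar
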